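import Cfsg.Agent.Lib.PrimeGraph.FrobCritB

/-!
# Products of critical groups of pairwise coprime orders
-/

set_option autoImplicit false

namespace Cfsg.Agent.Lib.PrimeGraph.CritProd

open Cfsg.Agent.Lib.PrimeGraph.FrobCritB

variable {ι : Type} [Fintype ι] [DecidableEq ι] {F : ι → Type} [∀ j, Group (F j)] [∀ j, Finite (F j)]

/-- A power of `x` is its `j`-th component. -/
theorem exists_pow_eq_single
    (hc : ∀ i j, i ≠ j → Nat.Coprime (Nat.card (F i)) (Nat.card (F j))) (j : ι) :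
    ∃ k : ℕ, k ≡ 1 [MOD Nat.card (F j)] ∧ ∀ x : ∀ i, F i, x ^ k = Pi.mulSingle j (x j) := by
  classical
  let M : ℕ := ∏ i ∈ Finset.univ.erase j, Nat.card (F i)
  have hM : Nat.Coprime (Nat.card (F j)) M := by
    apply Nat.Coprime.prod_right
    intro i hi
    exact hc j i (Finset.ne_of_mem_erase hi).symm
  obtain ⟨k, hk1, hk2⟩ := Nat.chineseRemainder hM 1 0
  refine ⟨k, hk1, ?_⟩
  intro x
  funext i
  by_cases hij : i = j
  · subst hij
    rw [Pi.mulSingle_eq_same, Pi.pow_apply, ← pow_mod_natCard, hk1, pow_mod_natCard, pow_one]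
  · rw [Pi.mulSingle_eq_of_ne hij, Pi.pow_apply]
    have h1 : Nat.card (F i) ∣ k := by
      have h2 : M ∣ k := (Nat.modEq_zero_iff_dvd).1 hk2
      exact (Finset.dvd_prod_of_mem _ (Finset.mem_erase.2 ⟨hij, Finset.mem_univ i⟩)).trans h2
    obtain ⟨t, rfl⟩ := h1
    rw [pow_mul, pow_card_eq_one', one_pow]

/-- Lifting an element of prime order of a section to a component. -/
theorem exists_lift_single (hc : ∀ i j, i ≠ j → Nat.Coprime (Nat.card (F i)) (Nat.card (F j)))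
    (H : Subgroup (∀ i, F i)) (N : Subgroup H) [N.Normal] (j : ι) (r : ℕ)
    (hr : r ∣ Nat.card (F j)) (z : H ⧸ N) (hz : orderOf z = r) :
    ∃ (y : F j) (hy : Pi.mulSingle j y ∈ H), (QuotientGroup.mk ⟨_, hy⟩ : H ⧸ N) = z := by
  obtain ⟨k, hk, hpow⟩ := exists_pow_eq_single hc j
  obtain ⟨x, rfl⟩ := QuotientGroup.mk_surjective z
  have hx : Pi.mulSingle j ((x : ∀ i, F i) j) ∈ H := by
    rw [← hpow]
    exact H.pow_mem x.2 k
  refine ⟨(x : ∀ i, F i) j, hx, ?_⟩
  have h1 : (⟨_, hx⟩ : H) = x ^ k := by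
    apply Subtype.ext
    simp only [SubmonoidClass.coe_pow]
    rw [hpow]
  rw [h1, QuotientGroup.mk_pow]
  have hk' : k ≡ 1 [MOD r] := hk.of_dvd hr
  have hw : ((x : H ⧸ N)) ^ r = 1 := by
    rw [← hz]
    exact pow_orderOf_eq_one _
  rw [pow_eq_pow_mod k hw, show k % r = 1 % r from hk', ← pow_eq_pow_mod 1 hw, pow_one]

/-- Sections of a product of critical groups. -/
theorem section_eq_top {P Q a : ι → ℕ} (hP : ∀ j, (P j).Prime) (hQ : ∀ j, (Q j).Prime)
    (hPQ : ∀ j, P j ≠ Q j)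
    (hc : ∀ i j, i ≠ j → Nat.Coprime (Nat.card (F i)) (Nat.card (F j)))
    (hcrit : ∀ j, IsCrit (P j) (Q j) (a j) (F j))
    (H : Subgroup (∀ i, F i)) (N : Subgroup H) [N.Normal]
    (hzP : ∀ j, ∃ z : H ⧸ N, orderOf z = P j) (hzQ : ∀ j, ∃ z : H ⧸ N, orderOf z = Q j) :
    H = ⊤ ∧ N = ⊥ := by
  classical
  have hPdvd : ∀ j, P j ∣ Nat.card (F j) := by
    intro j
    rw [(hcrit j).card_eq]
    exact (dvd_pow_self _ (hcrit j).a_pos).trans (dvd_mul_right _ _)
  have hQdvd : ∀ j, Q j ∣ Nat.card (F j) := by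
    intro j
    rw [(hcrit j).card_eq]
    exact dvd_mul_left _ _
  have hsingle : ∀ (K : Subgroup (∀ i, F i)) (x : ∀ i, F i), x ∈ K → ∀ j, Pi.mulSingle j (x j) ∈ K := by
    intro K x hx j
    obtain ⟨k, -, hpow⟩ := exists_pow_eq_single hc j
    rw [← hpow]
    exact K.pow_mem hx k
  -- the order of the lifted element
  have hord : ∀ (j : ι) (r : ℕ), (hr : r ∣ Nat.card (F j)) → ∀ z : H ⧸ N, orderOf z = r →
      r ∣ Nat.card (H.map (Pi.evalMonoidHom F j)) := by
    intro j r hr z hz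
    obtain ⟨y, hy, hyz⟩ := exists_lift_single hc H N j r hr z hz
    have h1 : orderOf y ∣ Nat.card (H.map (Pi.evalMonoidHom F j)) := by
      have hmem : y ∈ H.map (Pi.evalMonoidHom F j) := ⟨_, hy, by simp⟩
      have h2 := Subgroup.orderOf_dvd_natCard (H.map (Pi.evalMonoidHom F j)) hmem
      exact h2
    have h2 : r ∣ orderOf y := by
      rw [← hz, ← hyz]
      apply orderOf_dvd_of_pow_eq_one
      rw [← QuotientGroup.mk_pow]
      have h3 : (⟨Pi.mulSingle j y, hy⟩ : H) ^ orderOf y = 1 := by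
        apply Subtype.ext
        simp only [SubmonoidClass.coe_pow, OneMemClass.coe_one]
        rw [← Pi.mulSingle_pow, pow_orderOf_eq_one, Pi.mulSingle_one]
      rw [h3]
      rfl
    exact h2.trans h1
  have htop : H = ⊤ := by
    apply (Subgroup.eq_top_iff' H).2
    intro x
    apply Subgroup.pi_mem_of_mulSingle_mem
    intro j
    obtain ⟨z1, hz1⟩ := hzP j
    obtain ⟨z2, hz2⟩ := hzQ j
    have hj := (hcrit j).sub_top _ (hord j _ (hPdvd j) z1 hz1) (hord j _ (hQdvd j) z2 hz2)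
    have hmem : x j ∈ H.map (Pi.evalMonoidHom F j) := by
      rw [hj]
      exact Subgroup.mem_top _
    obtain ⟨y, hy, hyj⟩ := hmem
    have h1 : y j = x j := hyj
    rw [← h1]
    exact hsingle H y hy j
  refine ⟨htop, ?_⟩
  by_contra hN
  obtain ⟨m, hm, hm1⟩ := N.bot_or_exists_ne_one.resolve_left hN
  have hm2 : (m : ∀ i, F i) ≠ 1 := fun h => hm1 (Subtype.ext h)
  obtain ⟨j, hj⟩ := Function.ne_iff.1 hm2
  let N' : Subgroup (∀ i, F i) := N.map H.subtype
  have hN'n : N'.Normal := by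
    constructor
    rintro _ ⟨n, hn, rfl⟩ g
    have hg : g ∈ H := by rw [htop]; exact Subgroup.mem_top _
    refine ⟨⟨g, hg⟩ * n * ⟨g, hg⟩⁻¹, (inferInstance : N.Normal).conj_mem n hn _, ?_⟩
    rfl
  let Nj : Subgroup (F j) := N'.map (Pi.evalMonoidHom F j)
  have hsurj : Function.Surjective (Pi.evalMonoidHom F j) := fun y =>
    ⟨Pi.mulSingle j y, by simp⟩
  have hNjn : Nj.Normal := hN'n.map _ hsurj
  have hNj : Nj ≠ ⊥ := by
    intro h0
    have h1 : (m : ∀ i, F i) j ∈ Nj := ⟨_, ⟨m, hm, rfl⟩, rfl⟩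
    rw [h0, Subgroup.mem_bot] at h1
    exact hj h1
  have hq := (hcrit j).quot_dvd Nj hNjn hNj
  obtain ⟨z, hz⟩ := hzP j
  obtain ⟨y, hy, hyz⟩ := exists_lift_single hc H N j _ (hPdvd j) z hz
  have h1 : y ^ Q j ∈ Nj := by
    have h2 : (QuotientGroup.mk y : F j ⧸ Nj) ^ Q j = 1 := by
      obtain ⟨s, hs⟩ := hq
      rw [hs, pow_mul, pow_card_eq_one', one_pow]
    rw [← QuotientGroup.mk_pow] at h2
    exact (QuotientGroup.eq_one_iff _).1 h2
  obtain ⟨n, hn, hnj⟩ := h1
  have h2 : Pi.mulSingle j (y ^ Q j) ∈ N' := by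
    have h3 := hsingle N' n hn j
    have h4 : n j = y ^ Q j := hnj
    rwa [h4] at h3
  obtain ⟨w, hw, hwc⟩ := h2
  have h3 : z ^ Q j = 1 := by
    rw [← hyz, ← QuotientGroup.mk_pow]
    have h4 : (⟨Pi.mulSingle j y, hy⟩ : H) ^ Q j = w := by
      apply Subtype.ext
      simp only [SubmonoidClass.coe_pow]
      rw [← Pi.mulSingle_pow]
      exact hwc.symm
    rw [h4]
    exact (QuotientGroup.eq_one_iff _).2 hw
  have h4 := orderOf_dvd_of_pow_eq_one h3
  rw [hz] at h4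
  exact hPQ j ((Nat.prime_dvd_prime_iff_eq (hP j) (hQ j)).1 h4)

/-- The element orders of a product with pairwise coprime factors. -/
theorem orderOf_pi (hc : ∀ i j, i ≠ j → Nat.Coprime (Nat.card (F i)) (Nat.card (F j)))
    (x : ∀ i, F i) : orderOf x = ∏ j, orderOf (x j) := by
  classical
  apply Nat.dvd_antisymm
  · apply orderOf_dvd_of_pow_eq_one
    funext j
    rw [Pi.pow_apply, Pi.one_apply]
    exact orderOf_dvd_iff_pow_eq_one.1 (Finset.dvd_prod_of_mem _ (Finset.mem_univ j))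
  · apply Finset.prod_dvd_of_isRelPrime
    · intro i _ j _ hij
      have := hc i j hij
      exact Nat.coprime_iff_isRelPrime.1 (Nat.Coprime.coprime_dvd_left (orderOf_dvd_natCard _)
        (Nat.Coprime.coprime_dvd_right (orderOf_dvd_natCard _) this))
    · intro j _
      apply orderOf_dvd_of_pow_eq_one
      have h1 : x ^ orderOf x = 1 := pow_orderOf_eq_one x
      have h2 := congrFun h1 j
      simpa using h2

end Cfsg.Agent.Lib.PrimeGraph.CritProd
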