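import Cfsg.Agent.Lib.PrimeGraph.FrobCrit

/-!
# Critical Frobenius groups

For distinct primes `p, q` and `k` the order of `p` modulo `q`, the group `F_{p^k} ⋊ C_q` is
critical: its only sections containing elements of both orders are the group itself.
-/

set_option autoImplicit false

namespace Cfsg.Agent.Lib.PrimeGraph.FrobCritB

open Cfsg.Agent.Lib.PrimeGraph.Lift Cfsg.Agent.Lib.PrimeGraph.FrobGroup
  Cfsg.Agent.Lib.PrimeGraph.FrobCrit

section Irr

variable {K : Type} [Field K] [Finite K]

/-- Irreducibility of the action of an element of order `q`. -/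
theorem eq_top_of_invariant (p q k : ℕ) (hp : p.Prime) (hq : q.Prime)
    (hK : Nat.card K = p ^ k) (hk : orderOf (p : ZMod q) = k)
    (c : Kˣ) (hc : orderOf c = q) (U : AddSubgroup K)
    (hU : ∀ v ∈ U, (c : K) * v ∈ U) (hU0 : U ≠ ⊥) : U = ⊤ := by
  classical
  haveI : Fact q.Prime := ⟨hq⟩
  haveI : Fintype K := Fintype.ofFinite K
  let X : Type := {v : U // v ≠ 0}
  haveI : Fintype X := Fintype.ofFinite X
  let f : Function.End X := fun v => ⟨⟨(c : K) * v.1.1, hU _ v.1.2⟩, by
    intro h
    have h1 : (c : K) * v.1.1 = 0 := congrArg Subtype.val h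
    have h2 : v.1.1 = 0 := (mul_eq_zero.1 h1).resolve_left c.ne_zero
    exact v.2 (Subtype.ext h2)⟩
  have hfn : ∀ (n : ℕ) (v : X), ((f ^ n) v).1.1 = ((c ^ n : Kˣ) : K) * v.1.1 := by
    intro n v
    induction n with
    | zero =>
      rw [pow_zero, pow_zero, Units.val_one, one_mul]
      rfl
    | succ n ih =>
      rw [pow_succ']
      show (f ((f ^ n) v)).1.1 = _
      show (c : K) * ((f ^ n) v).1.1 = _
      rw [ih, pow_succ', Units.val_mul, mul_assoc]
  have hpow : f ^ q ^ 1 = 1 := by
    funext v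
    apply Subtype.ext
    apply Subtype.ext
    rw [pow_one, hfn, ← hc, pow_orderOf_eq_one, Units.val_one, one_mul]
    rfl
  have hmod := Equiv.Perm.card_fixedPoints_modEq hpow
  have hfix : Fintype.card (Function.fixedPoints f) = 0 := by
    rw [Fintype.card_eq_zero_iff]
    refine ⟨fun v => ?_⟩
    have h1 : (c : K) * v.1.1.1 = v.1.1.1 := congrArg (fun w : X => w.1.1) v.2
    have h2 : ((c : K) - 1) * v.1.1.1 = 0 := by
      rw [sub_mul, one_mul, h1, sub_self]
    rcases mul_eq_zero.1 h2 with h3 | h3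
    · have h4 : c = 1 := Units.ext (sub_eq_zero.1 h3)
      rw [h4, orderOf_one] at hc
      exact hq.one_lt.ne hc
    · exact v.1.2 (Subtype.ext h3)
  rw [hfix] at hmod
  -- the size of `U`
  have hUc : Nat.card U = Fintype.card X + 1 := by
    have h1 : Nat.card U = Nat.card {v : U // v ≠ 0} + 1 := by
      haveI : Fintype U := Fintype.ofFinite U
      rw [Nat.card_eq_fintype_card, Nat.card_eq_fintype_card, Fintype.card_subtype_compl]
      have h2 : Fintype.card {v : U // v = 0} = 1 := Fintype.card_unique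
      have h3 : 0 < Fintype.card U := Fintype.card_pos
      have h4 : Fintype.card {v : U // v = 0} ≤ Fintype.card U := Fintype.card_subtype_le _
      omega
    rw [h1, Nat.card_eq_fintype_card]
  obtain ⟨t, ht, htc⟩ : ∃ t, t ≤ k ∧ Nat.card U = p ^ t := by
    have h1 : Nat.card U ∣ p ^ k := by
      rw [← hK]
      exact AddSubgroup.card_addSubgroup_dvd_card U
    exact (Nat.dvd_prime_pow hp).1 h1
  have ht0 : t ≠ 0 := by
    rintro rfl
    apply hU0
    rw [pow_zero] at htc
    haveI : Subsingleton U := (Nat.card_eq_one_iff_unique.1 htc).1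
    apply (AddSubgroup.eq_bot_iff_forall U).2
    intro x hx
    have := Subsingleton.elim (⟨x, hx⟩ : U) 0
    exact congrArg Subtype.val this
  have hzm : (p : ZMod q) ^ t = 1 := by
    have h1 : p ^ t = Fintype.card X + 1 := by rw [← htc, hUc]
    have h2 : (Fintype.card X : ZMod q) = 0 := by
      rw [ZMod.natCast_eq_zero_iff]
      exact (Nat.modEq_zero_iff_dvd).1 hmod
    have h3 : ((p ^ t : ℕ) : ZMod q) = ((Fintype.card X + 1 : ℕ) : ZMod q) := by rw [h1]
    push_cast at h3
    rw [h3, h2, zero_add]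
  have hdvd : k ∣ t := by
    rw [← hk]
    exact orderOf_dvd_of_pow_eq_one hzm
  have htk : t = k := le_antisymm ht (Nat.le_of_dvd (Nat.pos_of_ne_zero ht0) hdvd)
  have hcard : Nat.card U = Nat.card K := by rw [htc, htk, hK]
  exact AddSubgroup.eq_top_of_card_eq U hcard

end Irr

section Crit

variable {K : Type} [Field K] [Finite K] (C : Subgroup Kˣ)

/-- The subgroup of the kernel. -/
def kerU (H : Subgroup (Fr C)) : AddSubgroup K where
  carrier := {v | (SemidirectProduct.inl (Multiplicative.ofAdd v) : Fr C) ∈ H}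
  zero_mem' := by
    show (SemidirectProduct.inl (Multiplicative.ofAdd (0 : K)) : Fr C) ∈ H
    rw [ofAdd_zero, map_one]
    exact one_mem _
  add_mem' := by
    intro a b ha hb
    show (SemidirectProduct.inl (Multiplicative.ofAdd (a + b)) : Fr C) ∈ H
    rw [ofAdd_add, map_mul]
    exact mul_mem ha hb
  neg_mem' := by
    intro a ha
    show (SemidirectProduct.inl (Multiplicative.ofAdd (-a)) : Fr C) ∈ H
    rw [ofAdd_neg, map_inv]
    exact inv_mem ha

theorem conj_inl (x : Fr C) (v : K) :
    x * (SemidirectProduct.inl (Multiplicative.ofAdd v) : Fr C) * x⁻¹ =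
      SemidirectProduct.inl (Multiplicative.ofAdd (((x.right : Kˣ) : K) * v)) := by
  have h1 : (SemidirectProduct.inl (Multiplicative.ofAdd (((x.right : Kˣ) : K) * v)) : Fr C) =
      SemidirectProduct.inr x.right * SemidirectProduct.inl (Multiplicative.ofAdd v) *
        SemidirectProduct.inr x.right⁻¹ := SemidirectProduct.inl_aut _ _
  have key : x * (SemidirectProduct.inl (Multiplicative.ofAdd v) : Fr C) * x⁻¹ =
      SemidirectProduct.inl x.left * (SemidirectProduct.inr x.right *
        SemidirectProduct.inl (Multiplicative.ofAdd v) * SemidirectProduct.inr x.right⁻¹) *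
        (SemidirectProduct.inl x.left)⁻¹ := by
    conv_lhs => rw [← SemidirectProduct.inl_left_mul_inr_right x]
    rw [map_inv SemidirectProduct.inr]
    group
  rw [key, ← h1, ← map_inv, ← map_mul, ← map_mul, mul_inv_cancel_comm]

/-- A subgroup containing the kernel and an element with non-trivial right part is everything. -/
theorem eq_top_of_mem (q : ℕ) (hq : q.Prime) (hC : Nat.card C = q) (H : Subgroup (Fr C))
    (hE : kerU C H = ⊤) (x : Fr C) (hx : x ∈ H) (hx1 : x.right ≠ 1) : H = ⊤ := by
  haveI : Fact q.Prime := ⟨hq⟩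
  apply (Subgroup.eq_top_iff' H).2
  intro g
  obtain ⟨i, hi⟩ := mem_zpowers_of_prime_card (g' := g.right) hC hx1
  have h1 : (g * (x ^ i)⁻¹).right = 1 := by
    have h2 : (x ^ i).right = x.right ^ i := map_zpow (SemidirectProduct.rightHom) x i
    rw [SemidirectProduct.mul_right, SemidirectProduct.inv_right, h2]
    have h3 : x.right ^ i = g.right := hi
    rw [h3, mul_inv_cancel]
  have h2 : g * (x ^ i)⁻¹ ∈ H := by
    rw [← SemidirectProduct.inl_left_mul_inr_right (g * (x ^ i)⁻¹), h1, map_one, mul_one]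
    have : Multiplicative.toAdd (g * (x ^ i)⁻¹).left ∈ kerU C H := by
      rw [hE]
      exact AddSubgroup.mem_top _
    exact this
  have h3 := mul_mem h2 (zpow_mem hx i)
  rwa [inv_mul_cancel_right] at h3

variable [Finite C]

theorem eq_top_of_dvd (p q k : ℕ) (hp : p.Prime) (hq : q.Prime) (hpq : p ≠ q) [CharP K p]
    (hK : Nat.card K = p ^ k) (hk : orderOf (p : ZMod q) = k) (hC : Nat.card C = q)
    (H : Subgroup (Fr C)) (h1 : p ∣ Nat.card H) (h2 : q ∣ Nat.card H) : H = ⊤ := by
  haveI : Fact p.Prime := ⟨hp⟩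
  haveI : Fact q.Prime := ⟨hq⟩
  haveI : Finite (Fr C) := finite_Fr C
  obtain ⟨y, hy⟩ := exists_prime_orderOf_dvd_card' p h1
  obtain ⟨x, hx⟩ := exists_prime_orderOf_dvd_card' q h2
  have hr : ∀ z : H, orderOf z = p → (z : Fr C).right = 1 := by
    intro z hz
    have h3 : orderOf (z : Fr C).right ∣ q := by
      rw [← hC]
      exact orderOf_dvd_natCard _
    have h4 : orderOf (z : Fr C).right ∣ p := by
      have h5 : orderOf (SemidirectProduct.rightHom (z : Fr C)) ∣ orderOf (z : Fr C) :=
        orderOf_map_dvd _ _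
      rw [Subgroup.orderOf_coe, hz] at h5
      exact h5
    exact orderOf_eq_one_iff.1 (Nat.eq_one_of_dvd_coprimes ((Nat.coprime_primes hp hq).2 hpq) h4 h3)
  have hcx : (x : Fr C).right ≠ 1 := by
    intro h3
    have h4 : (x : Fr C) ≠ 1 := by
      intro h5
      have : x = 1 := Subtype.ext h5
      rw [this, orderOf_one] at hx
      exact hq.one_lt.ne hx
    have h5 := orderOf_of_right_eq_one p hp (x : Fr C) h3 h4
    rw [Subgroup.orderOf_coe, hx] at h5
    exact hpq h5.symm
  have hoc : orderOf (((x : Fr C).right : Kˣ)) = q := by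
    rw [Subgroup.orderOf_coe]
    have h3 := orderOf_dvd_natCard (x : Fr C).right
    rw [hC] at h3
    rcases (Nat.dvd_prime hq).1 h3 with h4 | h4
    · exact absurd (orderOf_eq_one_iff.1 h4) hcx
    · exact h4
  have hU : kerU C H = ⊤ := by
    apply eq_top_of_invariant p q k hp hq hK hk _ hoc
    · intro v hv
      have h3 := H.mul_mem (H.mul_mem x.2 hv) (H.inv_mem x.2)
      rw [conj_inl] at h3
      exact h3
    · intro h3
      have h4 : Multiplicative.toAdd (y : Fr C).left ∈ kerU C H := by
        show SemidirectProduct.inl (y : Fr C).left ∈ H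
        have h5 := SemidirectProduct.inl_left_mul_inr_right (y : Fr C)
        rw [hr y hy, map_one, mul_one] at h5
        rw [h5]
        exact y.2
      rw [h3, AddSubgroup.mem_bot] at h4
      have h5 := SemidirectProduct.inl_left_mul_inr_right (y : Fr C)
      rw [hr y hy, map_one, mul_one] at h5
      have h6 : (y : Fr C).left = 1 := h4
      rw [h6, map_one] at h5
      have : y = 1 := Subtype.ext h5.symm
      rw [this, orderOf_one] at hy
      exact hp.one_lt.ne hy
  exact eq_top_of_mem C q hq hC H hU x x.2 hcx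

theorem card_quot_dvd (p q k : ℕ) (hp : p.Prime) (hq : q.Prime) [CharP K p]
    (hK : Nat.card K = p ^ k) (hk : orderOf (p : ZMod q) = k) (hC : Nat.card C = q)
    (N : Subgroup (Fr C)) [N.Normal] (hN : N ≠ ⊥) : Nat.card (Fr C ⧸ N) ∣ q := by
  haveI : Fact q.Prime := ⟨hq⟩
  haveI : Finite (Fr C) := finite_Fr C
  -- an element of `C` of order `q`
  obtain ⟨c, hc⟩ := exists_prime_orderOf_dvd_card' (G := C) q (by rw [hC])
  have hc1 : c ≠ 1 := by
    rintro rfl
    rw [orderOf_one] at hc
    exact hq.one_lt.ne hc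
  have hoc : orderOf (c : Kˣ) = q := by
    rw [Subgroup.orderOf_coe, hc]
  have hne : kerU C N ≠ ⊥ := by
    obtain ⟨g, hg, hg1⟩ := N.bot_or_exists_ne_one.resolve_left hN
    by_cases hgr : g.right = 1
    · intro h3
      have h4 : Multiplicative.toAdd g.left ∈ kerU C N := by
        show SemidirectProduct.inl g.left ∈ N
        have h5 := SemidirectProduct.inl_left_mul_inr_right g
        rw [hgr, map_one, mul_one] at h5
        rw [h5]
        exact hg
      rw [h3, AddSubgroup.mem_bot] at h4
      have h5 := SemidirectProduct.inl_left_mul_inr_right g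
      rw [hgr, map_one, mul_one] at h5
      have h6 : g.left = 1 := h4
      rw [h6, map_one] at h5
      exact hg1 h5.symm
    · intro h3
      let u : Fr C := SemidirectProduct.inl (Multiplicative.ofAdd (1 : K))
      have h4 : g * u * g⁻¹ * u⁻¹ ∈ N := by
        have h5 := (inferInstance : N.Normal).conj_mem g⁻¹ (N.inv_mem hg) u
        have h6 : g * (u * g⁻¹ * u⁻¹) ∈ N := N.mul_mem hg h5
        rwa [← mul_assoc, ← mul_assoc] at h6
      have h5 : g * u * g⁻¹ * u⁻¹ = SemidirectProduct.inl
          (Multiplicative.ofAdd (((g.right : Kˣ) : K) - 1)) := by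
        rw [conj_inl, mul_one, sub_eq_add_neg, ofAdd_add, map_mul, ofAdd_neg, map_inv]
      rw [h5] at h4
      have h6 : ((g.right : Kˣ) : K) - 1 ∈ kerU C N := h4
      rw [h3, AddSubgroup.mem_bot, sub_eq_zero] at h6
      apply hgr
      apply Subtype.ext
      apply Units.ext
      exact h6
  have hU : kerU C N = ⊤ := by
    apply eq_top_of_invariant p q k hp hq hK hk (c : Kˣ) hoc _ _ hne
    intro v hv
    have h3 := (inferInstance : N.Normal).conj_mem _ hv (SemidirectProduct.inr c : Fr C)
    rw [conj_inl] at h3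
    exact h3
  -- the size of the quotient
  have hE : (SemidirectProduct.inl : Multiplicative K →* Fr C).range ≤ N := by
    rintro _ ⟨v, rfl⟩
    have : Multiplicative.toAdd v ∈ kerU C N := by
      rw [hU]
      exact AddSubgroup.mem_top _
    exact this
  have hcardE : Nat.card (SemidirectProduct.inl : Multiplicative K →* Fr C).range = p ^ k := by
    have h3 : Nat.card (SemidirectProduct.inl : Multiplicative K →* Fr C).range =
        Nat.card (Multiplicative K) :=
      Nat.card_congr (MonoidHom.ofInjective SemidirectProduct.inl_injective).toEquiv.symm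
    rw [h3, ← hK]
    rfl
  obtain ⟨s, hs⟩ := Subgroup.card_dvd_of_le hE
  rw [hcardE] at hs
  have h3 : Nat.card (Fr C) = Nat.card (Fr C ⧸ N) * Nat.card N := by
    rw [← Subgroup.index_eq_card, Subgroup.index_mul_card]
  rw [card_Fr, hK, hC, hs] at h3
  have h4 : 0 < p ^ k := pow_pos hp.pos k
  refine ⟨s, ?_⟩
  have h5 : p ^ k * q = p ^ k * (Nat.card (Fr C ⧸ N) * s) := by
    rw [h3]; ring
  exact Nat.eq_of_mul_eq_mul_left h4 h5

end Crit

/-- What is needed of a factor. -/
structure IsCrit (P Q a : ℕ) (F : Type) [Group F] [Finite F] : Prop where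
  card_eq : Nat.card F = P ^ a * Q
  a_pos : a ≠ 0
  a_one : a = 1 → Q ∣ P - 1
  range_eq : Set.range (orderOf : F → ℕ) = {d | d ∣ Q} ∪ {P}
  sub_top : ∀ H : Subgroup F, P ∣ Nat.card H → Q ∣ Nat.card H → H = ⊤
  quot_dvd : ∀ N : Subgroup F, N.Normal → N ≠ ⊥ → Nat.card (F ⧸ N) ∣ Q

/-- Existence of critical Frobenius groups. -/
theorem exists_isCrit (P Q : ℕ) (hP : P.Prime) (hQ : Q.Prime) (hPQ : P ≠ Q) :
    ∃ (F : Type) (_ : Group F) (_ : Finite F) (a : ℕ), IsCrit P Q a F := by
  haveI : Fact Q.Prime := ⟨hQ⟩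
  have hcop : P.Coprime Q := (Nat.coprime_primes hP hQ).2 hPQ
  have hunit : IsUnit (P : ZMod Q) := (ZMod.isUnit_iff_coprime P Q).2 hcop
  obtain ⟨u, hu⟩ := hunit
  set k := orderOf (P : ZMod Q) with hk
  have hk' : orderOf u = k := by
    rw [hk, ← hu, orderOf_units]
  have hk0 : k ≠ 0 := by
    rw [← hk']
    exact (orderOf_pos u).ne'
  have hpow : (P : ZMod Q) ^ k = 1 := by
    rw [hk]
    exact pow_orderOf_eq_one _
  have hdvd : Q ∣ P ^ k - 1 := by
    have h1 : 1 ≤ P ^ k := Nat.one_le_pow _ _ hP.pos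
    have h2 : ((P ^ k - 1 : ℕ) : ZMod Q) = 0 := by
      rw [Nat.cast_sub h1]
      push_cast
      rw [hpow, sub_self]
    exact (ZMod.natCast_eq_zero_iff _ _).1 h2
  obtain ⟨K, _, _, _, C, hK, hC⟩ := exists_field P Q k hP hQ.pos hk0 hdvd
  haveI : Finite (Fr C) := finite_Fr C
  haveI : Finite C := Nat.finite_of_card_ne_zero (by rw [hC]; exact hQ.ne_zero)
  refine ⟨Fr C, inferInstance, inferInstance, k, ?_⟩
  refine ⟨?_, hk0, ?_, range_orderOf_Fr C P Q hP hC hQ.pos, ?_, ?_⟩
  · rw [card_Fr, hK, hC]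
  · intro h1
    rw [h1, pow_one] at hdvd
    exact hdvd
  · intro H h1 h2
    exact eq_top_of_dvd C P Q k hP hQ hPQ hK hk.symm hC H h1 h2
  · intro N hN hN1
    exact card_quot_dvd C P Q k hP hQ hK hk.symm hC N hN1

end Cfsg.Agent.Lib.PrimeGraph.FrobCritB
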