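/-
Mazurov's lemma on Frobenius sections: the abelianised trace argument.

If `F₀` (coprime to the `p`-group `P`) and `y` normalise `P`, `y` acts on `F₀` in the Frobenius way
and all elements `f y c` (`f ∈ F₀`, `c ∈ P`) have order dividing `n`, then `F₀` centralises `P`.
-/
import Cfsg.Agent.Lib.PrimeGraph.FrobSum
import Cfsg.Agent.Lib.Coprime.Action
import Cfsg.Agent.Lib.PGroups.Basic

set_option autoImplicit false

namespace Cfsg.Agent.Lib.PrimeGraph.FrobLift

open Cfsg.Agent.Lib.PrimeGraph.FrobSum

variable {G : Type*} [Group G]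

/-- The action of automorphisms on the abelianization. -/
noncomputable def abAut (P : Type*) [Group P] : MulAut P →* MulAut (Abelianization P) where
  toFun e := e.abelianizationCongr
  map_one' := by
    ext x
    obtain ⟨c, rfl⟩ := QuotientGroup.mk'_surjective (commutator P) x
    show MulEquiv.abelianizationCongr 1 (Abelianization.of c) = Abelianization.of c
    rw [abelianizationCongr_of]
    rfl
  map_mul' a b := by
    ext x
    obtain ⟨c, rfl⟩ := QuotientGroup.mk'_surjective (commutator P) x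
    show MulEquiv.abelianizationCongr (a * b) (Abelianization.of c) =
      MulEquiv.abelianizationCongr a (MulEquiv.abelianizationCongr b (Abelianization.of c))
    simp only [abelianizationCongr_of]
    rfl

theorem abAut_of (P : Type*) [Group P] (e : MulAut P) (x : P) :
    abAut P e (Abelianization.of x) = Abelianization.of (e x) :=
  abelianizationCongr_of e x

/-- expansion of the `m`-th power of `x c` modulo the commutator subgroup. -/
theorem exists_prod_formula (P : Subgroup G) (x c : G) (hx : x ∈ Subgroup.normalizer (P : Set G))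
    (hc : c ∈ P) (m : ℕ) :
    ∃ z : P, (z : G) = (x * c) ^ m * (x ^ m)⁻¹ ∧
      Abelianization.of z = ∏ i ∈ Finset.range m,
        abAut P (P.normalizerMonoidHom ⟨x ^ (i + 1), Subgroup.pow_mem _ hx _⟩)
          (Abelianization.of (⟨c, hc⟩ : P)) := by
  induction m with
  | zero => exact ⟨1, by simp, by simp⟩
  | succ m ih =>
    obtain ⟨z, hz1, hz2⟩ := ih
    refine ⟨z * (P.normalizerMonoidHom ⟨x ^ (m + 1), Subgroup.pow_mem _ hx _⟩) ⟨c, hc⟩, ?_, ?_⟩
    · have e : (((P.normalizerMonoidHom ⟨x ^ (m + 1), Subgroup.pow_mem _ hx _⟩) ⟨c, hc⟩ : P) : G)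
          = x ^ (m + 1) * c * (x ^ (m + 1))⁻¹ := rfl
      rw [Subgroup.coe_mul, hz1, e, pow_succ (x * c)]
      rw [pow_succ x]
      group
    · rw [map_mul, hz2, Finset.prod_range_succ, abAut_of]

/-- Triviality on the abelianization implies centralizing, for a coprime action on a `p`-group. -/
theorem le_centralizer_of_comm_mem {p : ℕ} [Fact p.Prime] [Finite G] (P F : Subgroup G)
    (hP : IsPGroup p P) (hcop : (Nat.card F).Coprime (Nat.card P))
    (hFP : F ≤ Subgroup.normalizer (P : Set G))
    (h : ∀ f ∈ F, ∀ c ∈ P, f * c * f⁻¹ * c⁻¹ ∈ (⁅P, P⁆ : Subgroup G)) :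
    F ≤ Subgroup.centralizer (P : Set G) := by
  have hs : Group.IsSolvable P := by
    haveI : Group.IsNilpotent P := hP.isNilpotent
    infer_instance
  have h1 := Cfsg.Agent.Lib.Coprime.Action.commutator_sup_fixed hFP hcop (Or.inr hs)
  have h2 : ⁅P, F⁆ ≤ ⁅P, P⁆ := by
    rw [Subgroup.commutator_le]
    intro c hc f hf
    have e : c * f * c⁻¹ * f⁻¹ = (f * c * f⁻¹ * c⁻¹)⁻¹ := by group
    rw [commutatorElement_def, e]
    exact Subgroup.inv_mem _ (h f hf c hc)
  let V : Subgroup G := P ⊓ Subgroup.centralizer (F : Set G)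
  let K : Subgroup P := V.subgroupOf P
  have hKmap : K.map P.subtype = V := Subgroup.map_subgroupOf_eq_of_le inf_le_left
  have h3 : commutator P ⊔ K = ⊤ := by
    apply Subgroup.map_injective P.subtype_injective
    rw [Subgroup.map_sup, hKmap, Subgroup.map_subtype_commutator, ← MonoidHom.range_eq_map,
      Subgroup.range_subtype]
    apply le_antisymm
    · refine sup_le ?_ inf_le_left
      rw [Subgroup.commutator_le]
      intro a ha b hb
      rw [commutatorElement_def]
      exact P.mul_mem (P.mul_mem (P.mul_mem ha hb) (P.inv_mem ha)) (P.inv_mem hb)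
    · conv_lhs => rw [← h1]
      exact sup_le_sup_right h2 _
  have h4 : K ⊔ frattini P = ⊤ := by
    rw [eq_top_iff, ← h3, sup_comm]
    exact sup_le_sup_left (Cfsg.Agent.Lib.PGroups.Basic.commutator_le_frattini hP) _
  have h5 : K = ⊤ := frattini_nongenerating h4
  intro f hf
  rw [Subgroup.mem_centralizer_iff]
  intro c hc
  have h6 : (⟨c, hc⟩ : P) ∈ K := by rw [h5]; exact Subgroup.mem_top _
  have h7 : c ∈ Subgroup.centralizer (F : Set G) := (Subgroup.mem_inf.mp h6).2
  exact ((Subgroup.mem_centralizer_iff.mp h7) f hf).symm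

theorem le_centralizer_of_forall_pow_eq_one {p : ℕ} [Fact p.Prime] [Finite G] (P F : Subgroup G)
    (y : G) (n : ℕ) (hn : 1 < n) (hP : IsPGroup p P) (hcop : (Nat.card F).Coprime (Nat.card P))
    (hFP : F ≤ Subgroup.normalizer (P : Set G)) (hyP : y ∈ Subgroup.normalizer (P : Set G))
    (hyF : ∀ a ∈ F, y * a * y⁻¹ ∈ F)
    (hfpf : ∀ i, 0 < i → i < n → ∀ a ∈ F, y ^ i * a * (y ^ i)⁻¹ = a → a = 1)
    (hord : ∀ f ∈ F, ∀ c ∈ P, (f * y * c) ^ n = 1) :
    F ≤ Subgroup.centralizer (P : Set G) := by
  classical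
  let A : Subgroup G := Subgroup.normalizer (P : Set G)
  let W := Abelianization P
  let φ : A →* MulAut W := (abAut P).comp P.normalizerMonoidHom
  let F' : Subgroup A := F.subgroupOf A
  let y' : A := ⟨y, hyP⟩
  haveI : Fintype F' := Fintype.ofFinite _
  have hFcard : Nat.card F' = Nat.card F :=
    Cfsg.Agent.Lib.Coprime.SchurZassenhaus.card_subgroupOf_of_le hFP
  have hy' : ∀ a ∈ F', y' * a * y'⁻¹ ∈ F' := by
    intro a ha
    exact hyF _ ha
  have hfpf' : ∀ i, 0 < i → i < n → ∀ a ∈ F', y' ^ i * a * (y' ^ i)⁻¹ = a → a = 1 := by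
    intro i hi0 hin a ha he
    have := hfpf i hi0 hin a ha (by
      have h2 := congrArg Subtype.val he
      simpa using h2)
    exact Subtype.ext this
  have h1' : ∀ a ∈ F', y' * a * y'⁻¹ = a → a = 1 := by
    intro a ha he
    exact hfpf' 1 one_pos hn a ha (by simpa using he)
  have hN : ∀ f ∈ F', ∀ w : W, ∏ i ∈ Finset.range n, φ ((f * y') ^ i) w = 1 := by
    intro f hf w
    obtain ⟨c, hcw⟩ := QuotientGroup.mk'_surjective (commutator P) w
    have hcw' : Abelianization.of c = w := hcw
    rw [← hcw']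
    have hxn : (f * y') ^ n = 1 := by
      apply Subtype.ext
      have := hord f hf 1 (one_mem _)
      simpa using this
    obtain ⟨z, hz1, hz2⟩ := exists_prod_formula P ((f * y' : A) : G) (c : G) (f * y').2 c.2 n
    have hz : z = 1 := by
      apply Subtype.ext
      rw [hz1]
      have h3 : ((f * y' : A) : G) ^ n = 1 := by
        have := congrArg Subtype.val hxn
        simpa using this
      have h4 := hord f hf c c.2
      rw [h3]
      simpa using h4
    rw [hz, map_one] at hz2
    have hfix := norm_fixed φ (f * y') n hxn (Abelianization.of c)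
    rw [map_prod] at hfix
    have h5 : ∏ i ∈ Finset.range n, φ (f * y') (φ ((f * y') ^ i) (Abelianization.of c)) = 1 := by
      rw [hz2]
      apply Finset.prod_congr rfl
      intro i _
      rw [← MulAut.mul_apply, ← map_mul, ← pow_succ']
      rfl
    rw [← hfix, h5]
  have hT : ∀ (d : A) (hd : d ∈ F') (v : W), ∏ b : F', φ (b : A) (φ d v) = ∏ b : F', φ (b : A) v := by
    intro d hd v
    calc ∏ b : F', φ (b : A) (φ d v)
        = ∏ b : F', φ ((Equiv.mulRight (⟨d, hd⟩ : F') b : F') : A) v := by
          apply Finset.prod_congr rfl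
          intro b _
          simp [map_mul]
      _ = ∏ b : F', φ (b : A) v := Equiv.prod_comp _ (fun b : F' => φ (b : A) v)
  have hw : ∀ f ∈ F', ∀ u : W, φ f u * u⁻¹ = 1 := by
    intro f hf u
    set w := φ f u * u⁻¹ with hw
    have htr := trace_identity φ F' y' n (by omega) hy' h1' hfpf' hN w
    have hin : ∀ i ∈ Finset.Ico 1 n, ∏ b : F', φ (b : A) (φ (y' ^ i) w) = 1 := by
      intro i hi
      have hd : y' ^ i * f * (y' ^ i)⁻¹ ∈ F' := conj_pow_mem F' y' hy' i f hf
      have e : φ (y' ^ i) w = φ (y' ^ i * f * (y' ^ i)⁻¹) (φ (y' ^ i) u) * (φ (y' ^ i) u)⁻¹ := by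
        rw [hw, map_mul, map_inv]
        congr 1
        rw [← MulAut.mul_apply, ← MulAut.mul_apply, ← map_mul, ← map_mul]
        congr 2
        group
      rw [e]
      simp_rw [map_mul _ (φ (y' ^ i * f * (y' ^ i)⁻¹) (φ (y' ^ i) u)), map_inv]
      rw [Finset.prod_mul_distrib, Finset.prod_inv_distrib, hT _ hd, mul_inv_cancel]
    rw [Finset.prod_eq_one hin, mul_one] at htr
    -- conclude by coprimality
    have hWc : Nat.card W ∣ Nat.card P := by
      have := Subgroup.card_eq_card_quotient_mul_card_subgroup (commutator P)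
      exact ⟨_, this⟩
    have h1 : orderOf w ∣ Nat.card F := by
      rw [← hFcard, Nat.card_eq_fintype_card]
      exact orderOf_dvd_of_pow_eq_one htr
    have h2 : orderOf w ∣ Nat.card P := (orderOf_dvd_natCard w).trans hWc
    have h3 : orderOf w ∣ 1 := by
      have := Nat.dvd_gcd h1 h2
      rwa [hcop] at this
    exact orderOf_eq_one_iff.mp (Nat.dvd_one.mp h3)
  apply le_centralizer_of_comm_mem P F hP hcop hFP
  intro f hf c hc
  have h1 := hw ⟨f, hFP hf⟩ hf (Abelianization.of ⟨c, hc⟩)
  have h2 : φ ⟨f, hFP hf⟩ (Abelianization.of ⟨c, hc⟩) =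
      Abelianization.of ((P.normalizerMonoidHom ⟨f, hFP hf⟩) ⟨c, hc⟩) := abAut_of _ _ _
  rw [h2, ← map_inv, ← map_mul] at h1
  have h3 := (QuotientGroup.eq_one_iff _).mp h1
  have h4 := Subgroup.mem_map_of_mem P.subtype h3
  rw [Subgroup.map_subtype_commutator] at h4
  exact h4

end Cfsg.Agent.Lib.PrimeGraph.FrobLift
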