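import Cfsg.Agent.Lib.PrimeGraph.Lift

/-!
# Semidirect products with elementary abelian 2-groups and the prime graph, second form

If `S` acts on an elementary abelian 2-group `V` so that whenever an element of odd prime order `q`
fixes a non-zero vector, `S` has an element of order `2 q`, and `2 ∣ |S|`, then the semidirect
products `V^k ⋊ S` have the same prime graph as `S`.
-/

set_option autoImplicit false

namespace Cfsg.Agent.Lib.PrimeGraph.Lift2

open scoped Pointwise

open Cfsg.Agent.Lib.PrimeGraph.Lift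

variable {S W : Type*} [Group S] [AddCommGroup W]

section
variable (act : S → W → W) (h1 : ∀ w, act 1 w = w)
    (hm : ∀ a b w, act (a * b) w = act a (act b w))
    (ha : ∀ s x y, act s (x + y) = act s x + act s y)

/-- An element of order `r * q` in the semidirect product projects to one in `S`. -/
theorem exists_orderOf_of_lift' (h2 : ∀ w : W, w + w = 0)
    (hfix : ∀ (y : S) (q : ℕ), q.Prime → q ≠ 2 → orderOf y = q → (∃ w : W, w ≠ 0 ∧ act y w = w) →
      ∃ x : S, orderOf x = 2 * q)
    [Finite S] (r q : ℕ) (hr : r.Prime) (hq : q.Prime) (hrq : r ≠ q) (h : SD act h1 hm ha)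
    (hord : orderOf h = r * q) : ∃ y : S, orderOf y = r * q := by
  classical
  set s := h.right with hs
  set o := orderOf s with ho
  have ho0 : 0 < o := orderOf_pos s
  have h3 : orderOf h ∣ 2 * o := by
    apply orderOf_dvd_of_pow_eq_one
    rw [mul_comm, pow_mul]
    exact sq_pow_orderOf act h1 hm ha h2 h
  have h4 : o ∣ orderOf h := by
    have := orderOf_map_dvd (SemidirectProduct.rightHom (φ := actHom act h1 hm ha)) h
    exact this
  rw [hord] at h3 h4
  by_cases hx : h ^ o = 1
  · have h5 : orderOf h ∣ o := orderOf_dvd_of_pow_eq_one hx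
    rw [hord] at h5
    exact ⟨s, Nat.dvd_antisymm h5 h4 |>.symm⟩
  · obtain ⟨c, hc⟩ := h4
    have hc2 : c ∣ 2 := by
      have h6 : o * c ∣ o * 2 := by
        rw [← hc, mul_comm o 2]
        exact h3
      exact Nat.dvd_of_mul_dvd_mul_left ho0 h6
    have hc' : c = 1 ∨ c = 2 := (Nat.dvd_prime Nat.prime_two).mp hc2
    rcases hc' with rfl | rfl
    · exfalso
      apply hx
      rw [mul_one] at hc
      rw [← hc, ← hord]
      exact pow_orderOf_eq_one h
    · -- `r * q = 2 * o`
      by_cases hN : Multiplicative.toAdd (h ^ o).left = 0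
      · exfalso
        apply hx
        apply SemidirectProduct.ext
        · apply Multiplicative.toAdd.injective
          rw [hN]
          rfl
        · rw [right_pow, pow_orderOf_eq_one]
          rfl
      · have hfixs := act_left_pow act h1 hm ha h
        have h2d : 2 ∣ r * q := ⟨o, by rw [hc, mul_comm]⟩
        rcases (Nat.Prime.dvd_mul Nat.prime_two).mp h2d with h7 | h7
        · have hr2 : r = 2 := ((Nat.prime_dvd_prime_iff_eq Nat.prime_two hr).mp h7).symm
          subst hr2
          have hoq : o = q := by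
            have : 2 * q = 2 * o := by rw [hc, mul_comm]
            omega
          obtain ⟨x, hx'⟩ := hfix s o (hoq ▸ hq) (hoq ▸ Ne.symm hrq) rfl ⟨_, hN, hfixs⟩
          exact ⟨x, by rw [hx', hoq]⟩
        · have hq2 : q = 2 := ((Nat.prime_dvd_prime_iff_eq Nat.prime_two hq).mp h7).symm
          subst hq2
          have hor : o = r := by
            have : r * 2 = o * 2 := hc
            omega
          obtain ⟨x, hx'⟩ := hfix s o (hor ▸ hr) (hor ▸ hrq) rfl ⟨_, hN, hfixs⟩
          exact ⟨x, by rw [hx', hor, mul_comm]⟩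

end

/-- The main theorem: same primes, same joined pairs, order at least `|W|`, as a group in `Type`. -/
theorem exists_lift' {V : Type*} [AddCommGroup V] [Finite S] [Finite V]
    (act : S → V → V) (h1 : ∀ w, act 1 w = w)
    (hm : ∀ a b w, act (a * b) w = act a (act b w))
    (ha : ∀ s x y, act s (x + y) = act s x + act s y)
    (h2 : ∀ w : V, w + w = 0) (hne : ∃ v : V, v ≠ 0) (htwo : 2 ∣ Nat.card S)
    (hfix : ∀ (y : S) (q : ℕ), q.Prime → q ≠ 2 → orderOf y = q → (∃ w : V, w ≠ 0 ∧ act y w = w) →
      ∃ x : S, orderOf x = 2 * q)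
    (N : ℕ) :
    ∃ (H : Type) (_ : Group H) (_ : Fintype H), N < Fintype.card H ∧
      (∀ p : ℕ, p.Prime → (p ∣ Nat.card S ↔ p ∣ Nat.card H)) ∧
      (∀ r q : ℕ, r.Prime → q.Prime → r ≠ q →
        ((∃ x : S, orderOf x = r * q) ↔ (∃ y : H, orderOf y = r * q))) := by
  classical
  -- the power `V ^ N`
  let W := Fin (N + 1) → V
  let actW : S → W → W := fun s w i => act s (w i)
  have hW1 : ∀ w, actW 1 w = w := fun w => funext fun i => h1 _
  have hWm : ∀ a b w, actW (a * b) w = actW a (actW b w) := fun a b w => funext fun i => hm _ _ _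
  have hWa : ∀ s x y, actW s (x + y) = actW s x + actW s y := fun s x y => funext fun i => ha _ _ _
  have hW2 : ∀ w : W, w + w = 0 := fun w => funext fun i => h2 _
  have hWfix : ∀ (y : S) (q : ℕ), q.Prime → q ≠ 2 → orderOf y = q →
      (∃ w : W, w ≠ 0 ∧ actW y w = w) → ∃ x : S, orderOf x = 2 * q := by
    rintro y q hq hq2 hy ⟨w, hw0, hw⟩
    obtain ⟨i, hi⟩ := Function.ne_iff.mp hw0
    exact hfix y q hq hq2 hy ⟨w i, hi, congrFun hw i⟩
  let H0 := SD actW hW1 hWm hWa
  have hfinH0 : Finite H0 := by
    let e : H0 ≃ Multiplicative W × S := SemidirectProduct.equivProd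
    exact Finite.of_equiv _ e.symm
  have hcardH0 : Nat.card H0 = Nat.card W * Nat.card S := by
    let e : H0 ≃ Multiplicative W × S := SemidirectProduct.equivProd
    rw [Nat.card_congr e, Nat.card_prod]
    rfl
  have hV2 : 2 ≤ Nat.card V := by
    obtain ⟨v, hv⟩ := hne
    have : Nontrivial V := ⟨⟨v, 0, hv⟩⟩
    exact Finite.one_lt_card
  have hcardW : Nat.card W = Nat.card V ^ (N + 1) := by
    simp [W, Nat.card_pi]
  have hWlarge : N < Nat.card W := by
    rw [hcardW]
    calc N < 2 ^ (N + 1) := by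
          have := Nat.lt_two_pow_self (n := N + 1)
          omega
      _ ≤ Nat.card V ^ (N + 1) := Nat.pow_le_pow_left hV2 _
  obtain ⟨n, gH, hnH, ⟨mulE⟩⟩ := exists_fin_model H0
  have hcardFin : Fintype.card (Fin n) = Nat.card H0 := by rw [Fintype.card_fin, hnH]
  have hp1 : ∀ p : ℕ, p.Prime → (p ∣ Nat.card S ↔ p ∣ Nat.card H0) := by
    intro p hp
    rw [hcardH0]
    constructor
    · intro h
      exact Dvd.dvd.mul_left h _
    · intro h
      rcases (Nat.Prime.dvd_mul hp).mp h with h3 | h3
      · -- `p ∣ |W|`, so `p = 2`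
        have : Fact p.Prime := ⟨hp⟩
        obtain ⟨x, hx⟩ := exists_prime_addOrderOf_dvd_card' (G := W) p h3
        have h4 : addOrderOf x ∣ 2 := by
          apply addOrderOf_dvd_of_nsmul_eq_zero
          rw [two_nsmul]
          exact hW2 x
        rw [hx] at h4
        have := (Nat.prime_dvd_prime_iff_eq hp Nat.prime_two).mp h4
        rw [this]
        exact htwo
      · exact h3
  have hp2 : ∀ r q : ℕ, r.Prime → q.Prime → r ≠ q →
      ((∃ x : S, orderOf x = r * q) ↔ (∃ y : H0, orderOf y = r * q)) := by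
    intro r q hr hq hrq
    constructor
    · rintro ⟨x, hx⟩
      refine ⟨SemidirectProduct.inr x, ?_⟩
      rw [orderOf_injective _ SemidirectProduct.inr_injective x]
      exact hx
    · rintro ⟨y, hy⟩
      exact exists_orderOf_of_lift' actW hW1 hWm hWa hW2 hWfix r q hr hq hrq y hy
  refine ⟨Fin n, gH, inferInstance, ?_, @transfer _ _ _ _ gH _ mulE hp1 hp2⟩
  rw [hcardFin, hcardH0]
  have : 0 < Nat.card S := Nat.card_pos
  nlinarith

/-- Any two elements of prime order `q` with `q ∥ |G|` generate conjugate subgroups. -/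
theorem exists_conj_pow {G : Type*} [Group G] [Finite G] (q : ℕ) (hq : q.Prime)
    (hq2 : ¬ q ^ 2 ∣ Nat.card G) (z y : G) (hz : orderOf z = q) (hy : orderOf y = q) :
    ∃ (g : G) (k : ℕ), g * y ^ k * g⁻¹ = z := by
  classical
  haveI : Fact q.Prime := ⟨hq⟩
  have hdvd : q ∣ Nat.card G := by
    rw [← hz]
    exact orderOf_dvd_natCard z
  have hfac : (Nat.card G).factorization q = 1 := by
    have h1 : 1 ≤ (Nat.card G).factorization q :=
      (hq.dvd_iff_one_le_factorization Nat.card_pos.ne').mp hdvd
    have h2 : ¬ 2 ≤ (Nat.card G).factorization q := by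
      intro h
      exact hq2 ((hq.pow_dvd_iff_le_factorization Nat.card_pos.ne').mpr h)
    omega
  have hP : Nat.card (Subgroup.zpowers z) = q ^ (Nat.card G).factorization q := by
    rw [hfac, pow_one, Nat.card_zpowers, hz]
  have hQ : Nat.card (Subgroup.zpowers y) = q ^ (Nat.card G).factorization q := by
    rw [hfac, pow_one, Nat.card_zpowers, hy]
  let P : Sylow q G := Sylow.ofCard _ hP
  let Q : Sylow q G := Sylow.ofCard _ hQ
  obtain ⟨g, hg⟩ := MulAction.exists_smul_eq G Q P
  have hzP : z ∈ (P : Subgroup G) := Subgroup.mem_zpowers z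
  rw [← hg] at hzP
  have h3 : z ∈ MulAut.conj g • (Q : Subgroup G) := hzP
  obtain ⟨s, hs, hsz⟩ := (Subgroup.mem_smul_pointwise_iff_exists _ _ _).mp h3
  obtain ⟨k, hk⟩ := Subgroup.mem_zpowers_iff.mp hs
  refine ⟨g, (k % orderOf y).toNat, ?_⟩
  have h5 : y ^ ((k % orderOf y).toNat) = y ^ k := by
    have hpos : 0 ≤ k % (orderOf y : ℤ) := Int.emod_nonneg _ (by
      rw [hy]; exact_mod_cast hq.ne_zero)
    rw [← zpow_natCast, Int.toNat_of_nonneg hpos, zpow_mod_orderOf]
  rw [h5, hk, ← hsz]
  rfl

end Cfsg.Agent.Lib.PrimeGraph.Lift2
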