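import Cfsg.Agent.Lib.ChevX.Reach
import Cfsg.Agent.Lib.Lie.AxOf
import Cfsg.Agent.Lib.PrimeGraph.G24Field
import Cfsg.Agent.Lib.PrimeGraph.Lift2
import Cfsg.Agent.S1059

/-!
# The natural six-dimensional module of `G₂(4)`

The root elements of the fundamental roots and their negatives act on the alternating square of a
six-dimensional space; the action contains the Lie algebra as a 14-dimensional subspace on which
the group acts as on the coordinates of its definition. This gives a homomorphism `ρ` of `G₂(4)`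
into `GL₆(4)`.
-/

set_option autoImplicit false

namespace Cfsg.Agent.Lib.PrimeGraph.G24

open Cfsg.Lie Cfsg.Agent.Lib.PrimeGraph.G24Field Cfsg.Agent.Lib.Chev.AxBasic
open scoped Matrix MatrixGroups

/-- The matrices on the natural module. -/
def yMat (r : ℕ) (t : K4) : Matrix (Fin 6) (Fin 6) K4 :=
  if r = 7 then !![1,0,0,t*t,0,0; 0,1,0,0,0,0; 0,t,1,0,0,0; 0,0,0,1,0,0; 0,0,0,0,1,t; 0,0,0,0,0,1]
  else if r = 6 then !![1,0,0,0,0,0; t,1,0,0,0,0; 0,0,1,0,0,0; 0,0,0,1,t,0; 0,0,0,0,1,0; 0,0,0,0,0,1]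
  else if r = 4 then !![1,0,0,0,0,0; 0,1,t,0,0,0; 0,0,1,0,0,0; t*t,0,0,1,0,0; 0,0,0,0,1,0; 0,0,0,0,t,1]
  else if r = 5 then !![1,t,0,0,0,0; 0,1,0,0,0,0; 0,0,1,0,0,0; 0,0,0,1,0,0; 0,0,0,t,1,0; 0,0,0,0,0,1]
  else 1

theorem yMat_sq (r : ℕ) (t : K4) : yMat r t * yMat r t = 1 := by
  unfold yMat
  split_ifs
  · revert t; decide +kernel
  · revert t; decide +kernel
  · revert t; decide +kernel
  · revert t; decide +kernel
  · simp

/-- The bivector `e_i ∧ e_j`. -/
def wedge (i j : Fin 6) : Matrix (Fin 6) (Fin 6) K4 :=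
  Matrix.of fun a b => if (a = i ∧ b = j) ∨ (a = j ∧ b = i) then 1 else 0

/-- The images of the coordinate vectors. -/
def B : chevG2.Idx → Matrix (Fin 6) (Fin 6) K4
  | Sum.inl i => if i.val = 0 then wedge 1 4 + wedge 2 5 else wedge 0 3 + wedge 1 4
  | Sum.inr r =>
     match r.val with
     | 0 => wedge 4 5
     | 1 => wedge 3 5
     | 2 => wedge 3 4
     | 3 => wedge 0 5
     | 4 => wedge 1 5
     | 5 => wedge 0 4
     | 6 => wedge 1 3
     | 7 => wedge 2 4
     | 8 => wedge 2 3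
     | 9 => wedge 0 1
     | 10 => wedge 0 2
     | _ => wedge 1 2

set_option maxRecDepth 100000 in
theorem chk7 : ∀ (t : K4) (c : chevG2.Idx),
    yMat 7 t * B c * (yMat 7 t)ᵀ = ∑ k, chevG2.x K4 7 t k c • B k := by
  decide +kernel

set_option maxRecDepth 100000 in
theorem chk6 : ∀ (t : K4) (c : chevG2.Idx),
    yMat 6 t * B c * (yMat 6 t)ᵀ = ∑ k, chevG2.x K4 6 t k c • B k := by
  decide +kernel

set_option maxRecDepth 100000 in
theorem chk4 : ∀ (t : K4) (c : chevG2.Idx),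
    yMat 4 t * B c * (yMat 4 t)ᵀ = ∑ k, chevG2.x K4 4 t k c • B k := by
  decide +kernel

set_option maxRecDepth 100000 in
theorem chk5 : ∀ (t : K4) (c : chevG2.Idx),
    yMat 5 t * B c * (yMat 5 t)ᵀ = ∑ k, chevG2.x K4 5 t k c • B k := by
  decide +kernel

/-- The linear map from the coordinates to the bivectors. -/
def β (v : chevG2.Idx → K4) : Matrix (Fin 6) (Fin 6) K4 := ∑ k, v k • B k

theorem B_dual : ∀ c : chevG2.Idx, ∃ a b : Fin 6, ∀ k : chevG2.Idx, B k a b = if k = c then 1 else 0 := by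
  decide +kernel

theorem β_inj {v w : chevG2.Idx → K4} (h : β v = β w) : v = w := by
  funext c
  obtain ⟨a, b, hab⟩ := B_dual c
  have h1 := congrFun (congrFun h a) b
  simp only [β, Matrix.sum_apply, Matrix.smul_apply, hab, smul_eq_mul, mul_ite, mul_one, mul_zero,
    Finset.sum_ite_eq', Finset.mem_univ, if_true] at h1
  exact h1

theorem β_of_basis {y X : Matrix _ _ K4}
    (h : ∀ c, y * B c * yᵀ = ∑ k, X k c • B k) (v : chevG2.Idx → K4) :
    y * β v * yᵀ = β (X *ᵥ v) := by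
  unfold β
  simp only [Matrix.mul_sum, Matrix.sum_mul, Matrix.mul_smul, Matrix.smul_mul, h, Matrix.mulVec,
    dotProduct, Finset.sum_smul, Finset.smul_sum, smul_smul]
  rw [Finset.sum_comm]
  refine Finset.sum_congr rfl fun k _ => Finset.sum_congr rfl fun c _ => ?_
  rw [mul_comm]

/-- The pairs of an element of `GL₁₄` and an element of `GL₆` which are compatible. -/
def A : Subgroup (GL chevG2.Idx K4 × GL (Fin 6) K4) where
  carrier := {p | ∀ v, (p.2 : Matrix (Fin 6) (Fin 6) K4) * β v * (p.2 : Matrix (Fin 6) (Fin 6) K4)ᵀ =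
    β ((p.1 : Matrix chevG2.Idx chevG2.Idx K4) *ᵥ v)}
  mul_mem' := by
    intro p q hp hq v
    have h1 := hq v
    have h2 := hp ((q.1 : Matrix chevG2.Idx chevG2.Idx K4) *ᵥ v)
    simp only [Prod.fst_mul, Prod.snd_mul, Units.val_mul, Matrix.transpose_mul]
    rw [← Matrix.mulVec_mulVec, ← h2, ← h1]
    simp only [Matrix.mul_assoc]
  one_mem' := by
    intro v
    simp
  inv_mem' := by
    intro p hp v
    simp only [Prod.fst_inv, Prod.snd_inv]
    set w := (((p.1)⁻¹ : GL chevG2.Idx K4) : Matrix chevG2.Idx chevG2.Idx K4) *ᵥ v with hw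
    have h1 : (p.1 : Matrix chevG2.Idx chevG2.Idx K4) *ᵥ w = v := by
      rw [hw, Matrix.mulVec_mulVec, ← Units.val_mul, mul_inv_cancel]
      simp
    have h2 := hp w
    rw [h1] at h2
    rw [← h2]
    have h3 : (((p.2)⁻¹ : GL (Fin 6) K4) : Matrix (Fin 6) (Fin 6) K4) * (p.2 : Matrix (Fin 6) (Fin 6) K4) = 1 := by
      rw [← Units.val_mul, inv_mul_cancel]
      simp
    have h4 : (p.2 : Matrix (Fin 6) (Fin 6) K4)ᵀ * (((p.2)⁻¹ : GL (Fin 6) K4) : Matrix (Fin 6) (Fin 6) K4)ᵀ = 1 := by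
      rw [← Matrix.transpose_mul, h3, Matrix.transpose_one]
    calc _ = ((((p.2)⁻¹ : GL (Fin 6) K4) : Matrix (Fin 6) (Fin 6) K4) * (p.2 : Matrix (Fin 6) (Fin 6) K4)) * β w *
          ((p.2 : Matrix (Fin 6) (Fin 6) K4)ᵀ * (((p.2)⁻¹ : GL (Fin 6) K4) : Matrix (Fin 6) (Fin 6) K4)ᵀ) := by
          simp only [Matrix.mul_assoc]
      _ = β w := by rw [h3, h4, Matrix.one_mul, Matrix.mul_one]

theorem mem_A {p : GL chevG2.Idx K4 × GL (Fin 6) K4} : p ∈ A ↔
    ∀ v, (p.2 : Matrix (Fin 6) (Fin 6) K4) * β v * (p.2 : Matrix (Fin 6) (Fin 6) K4)ᵀ =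
    β ((p.1 : Matrix chevG2.Idx chevG2.Idx K4) *ᵥ v) := Iff.rfl

/-- Formula for the action on a bivector. -/
theorem conj_wedge (Y : Matrix (Fin 6) (Fin 6) K4) {i j : Fin 6} (hij : i ≠ j) (k l : Fin 6) :
    (Y * wedge i j * Yᵀ) k l = Y k i * Y l j + Y k j * Y l i := by
  have h1 : wedge i j = Matrix.single i j 1 + Matrix.single j i 1 := by
    ext a b
    simp only [wedge, Matrix.of_apply, Matrix.add_apply, Matrix.single_apply]
    by_cases h2 : i = a <;> by_cases h3 : j = b <;> by_cases h4 : j = a <;> by_cases h5 : i = b <;>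
      simp_all [eq_comm]
  have h2 : ∀ a b : Fin 6, (Y * Matrix.single a b (1 : K4) * Yᵀ) k l = Y k a * Y l b := by
    intro a b
    rw [Matrix.mul_apply]
    simp only [Matrix.transpose_apply, Matrix.mul_apply, Matrix.single_apply]
    rw [Finset.sum_eq_single b]
    · rw [Finset.sum_eq_single a]
      · simp
      · intro c _ hc
        simp [Ne.symm hc]
      · simp
    · intro c _ hc
      simp [Ne.symm hc]
    · simp
  rw [h1, Matrix.mul_add, Matrix.add_mul, Matrix.add_apply, h2, h2]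

theorem aux1 : ∀ a b c d e f : K4, a * b + c * d = 1 → e * b + f * d = 0 → e * c + f * a = 0 → e = 0 := by
  decide +kernel

theorem aux2 : ∀ a b c : K4, a * b = 1 → b * c = 1 → a * c = 1 → a = 1 := by
  decide +kernel

theorem rig1 : ∀ i j : Fin 6, i ≠ j → j ≠ i + 3 → ∃ c : Fin 12, B (Sum.inr c) = wedge i j := by
  decide +kernel

theorem rig2 : ∀ i k : Fin 6, i ≠ k → ∃ j : Fin 6, j ≠ i ∧ j ≠ i + 3 ∧ j ≠ k := by
  decide +kernel

theorem rig3 : ∀ i : Fin 6, ∃ j k : Fin 6, j ≠ i ∧ j ≠ i + 3 ∧ k ≠ j ∧ k ≠ j + 3 ∧ k ≠ i ∧ k ≠ i + 3 := by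
  decide +kernel

theorem wedge_apply1 (i j : Fin 6) : wedge i j i j = 1 := by
  simp [wedge]

theorem wedge_apply0 {i j k l : Fin 6} (h1 : ¬ (k = i ∧ l = j)) (h2 : ¬ (k = j ∧ l = i)) : wedge i j k l = 0 := by
  simp [wedge, h1, h2]

/-- An element of `GL₆` which fixes the bivectors `B c` is trivial. -/
theorem rigid (Y : Matrix (Fin 6) (Fin 6) K4) (h : ∀ c : chevG2.Idx, Y * B c * Yᵀ = B c) : Y = 1 := by
  have hY : ∀ i j : Fin 6, i ≠ j → j ≠ i + 3 → ∀ k l,
      Y k i * Y l j + Y k j * Y l i = wedge i j k l := by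
    intro i j hij hj k l
    obtain ⟨c, hc⟩ := rig1 i j hij hj
    have := h (Sum.inr c)
    rw [hc] at this
    rw [← conj_wedge Y hij, this]
  have hoff : ∀ i k : Fin 6, i ≠ k → Y k i = 0 := by
    intro i k hik
    obtain ⟨j, hj1, hj2, hj3⟩ := rig2 i k hik
    have h1 := hY i j (Ne.symm hj1) hj2 i j
    rw [wedge_apply1] at h1
    have h2 := hY i j (Ne.symm hj1) hj2 k j
    rw [wedge_apply0 (fun h => hik h.1.symm) (fun h => hj3 h.1.symm)] at h2
    have h3 := hY i j (Ne.symm hj1) hj2 k i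
    rw [wedge_apply0 (fun h => hik h.1.symm) (fun h => hj3 h.1.symm)] at h3
    exact aux1 _ _ _ _ _ _ h1 h2 h3
  have hdiag : ∀ i j : Fin 6, i ≠ j → j ≠ i + 3 → Y i i * Y j j = 1 := by
    intro i j hij hj
    have h1 := hY i j hij hj i j
    rw [wedge_apply1, hoff j i (Ne.symm hij)] at h1
    simpa using h1
  have hone : ∀ i : Fin 6, Y i i = 1 := by
    intro i
    obtain ⟨j, k, h1, h2, h3, h4, h5, h6⟩ := rig3 i
    exact aux2 _ (Y j j) (Y k k) (hdiag i j (Ne.symm h1) h2) (hdiag j k (Ne.symm h3) h4) (hdiag i k (Ne.symm h5) h6)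
  ext i j
  by_cases hij : i = j
  · subst hij
    simp [hone]
  · rw [hoff j i (Ne.symm hij), Matrix.one_apply_ne hij]

/-- The axioms of the type `G₂` over the concrete field. -/
theorem ax : Ax chevG2 K4 := Cfsg.Agent.Lib.Lie.AxOf.ax_of_mem (by simp)

/-- The generators of `GL₆`. -/
def yG (r : ℕ) (t : K4) : GL (Fin 6) K4 where
  val := yMat r t
  inv := yMat r t
  val_inv := yMat_sq r t
  inv_val := yMat_sq r t

/-- Abbreviation: the generator of the Chevalley group. -/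
noncomputable abbrev xK (r : ℕ) (t : K4) : GL chevG2.Idx K4 := xG ax r t

theorem gen_mem (r : ℕ) (hr : r = 7 ∨ r = 6 ∨ r = 4 ∨ r = 5) (t : K4) : (xK r t, yG r t) ∈ A := by
  rw [mem_A]
  apply β_of_basis
  rcases hr with rfl | rfl | rfl | rfl
  · exact chk7 t
  · exact chk6 t
  · exact chk4 t
  · exact chk5 t

/-- Abbreviation: the Chevalley group. -/
abbrev L : Type := ↥(chevG2.group K4)

theorem exists_y (x : L) : ∃ y : GL (Fin 6) K4, ((x : GL chevG2.Idx K4), y) ∈ A := by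
  have hD : Cfsg.Agent.Lib.Lie.Facts.IsData chevG2 := by simp [Cfsg.Agent.Lib.Lie.Facts.IsData]
  have h : chevG2.group K4 ≤ A.map (MonoidHom.fst _ _) := by
    refine Cfsg.Agent.Lib.ChevX.Reach.group_le hD ax ?_ ?_
    · intro i hi t
      have hi' : i < 2 := hi
      interval_cases i
      · exact ⟨_, gen_mem 7 (by simp) t, rfl⟩
      · exact ⟨_, gen_mem 6 (by simp) t, rfl⟩
    · intro i hi t
      have hi' : i < 2 := hi
      interval_cases i
      · exact ⟨_, gen_mem 4 (by simp) t, rfl⟩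
      · exact ⟨_, gen_mem 5 (by simp) t, rfl⟩
  obtain ⟨p, hp, hp2⟩ := h x.2
  refine ⟨p.2, ?_⟩
  have : p = ((x : GL chevG2.Idx K4), p.2) := by
    ext1
    · exact hp2
    · rfl
  rw [← this]
  exact hp

theorem unique_y {x : GL chevG2.Idx K4} {y y' : GL (Fin 6) K4} (h : (x, y) ∈ A) (h' : (x, y') ∈ A) : y = y' := by
  have h1 : (x, y)⁻¹ * (x, y') ∈ A := A.mul_mem (A.inv_mem h) h'
  have h2 : (x, y)⁻¹ * (x, y') = (1, y⁻¹ * y') := by
    ext1 <;> simp
  rw [h2] at h1
  have h3 : ((y⁻¹ * y' : GL (Fin 6) K4) : Matrix (Fin 6) (Fin 6) K4) = 1 := by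
    apply rigid
    intro c
    have h4 := h1 (Pi.single c 1)
    have h5 : β (Pi.single c 1) = B c := by
      unfold β
      rw [Finset.sum_eq_single c]
      · simp
      · intro k _ hk
        simp [Pi.single_eq_of_ne hk]
      · simp
    simp only [Units.val_one, Matrix.one_mulVec] at h4
    rw [h5] at h4
    exact h4
  have h4 : y⁻¹ * y' = 1 := Units.ext h3
  exact (inv_mul_eq_one.mp h4)

/-- The natural representation. -/
noncomputable def rhoFun (x : L) : GL (Fin 6) K4 := Classical.choose (exists_y x)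

theorem rhoFun_spec (x : L) : ((x : GL chevG2.Idx K4), rhoFun x) ∈ A := Classical.choose_spec (exists_y x)

theorem rhoFun_mul (a b : L) : rhoFun (a * b) = rhoFun a * rhoFun b := by
  have h1 := rhoFun_spec (a * b)
  have h2 := A.mul_mem (rhoFun_spec a) (rhoFun_spec b)
  rw [Prod.mk_mul_mk, ← Subgroup.coe_mul] at h2
  exact unique_y h1 h2

/-- The natural representation. -/
noncomputable def rho : L →* GL (Fin 6) K4 :=
  MonoidHom.mk' rhoFun rhoFun_mul

theorem rho_eq {x : L} {y : GL (Fin 6) K4} (h : ((x : GL chevG2.Idx K4), y) ∈ A) : rho x = y :=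
  unique_y (rhoFun_spec x) h

theorem rho_injective : Function.Injective rho := by
  rw [injective_iff_map_eq_one]
  intro x hx
  have h1 := rhoFun_spec x
  have h2 : rhoFun x = 1 := hx
  rw [h2] at h1
  apply Subtype.ext
  apply Units.ext
  have h3 : ∀ v, ((x : GL chevG2.Idx K4) : Matrix chevG2.Idx chevG2.Idx K4) *ᵥ v = v := by
    intro v
    have := h1 v
    simp only [Units.val_one, Matrix.one_mul, Matrix.transpose_one, Matrix.mul_one] at this
    exact (β_inj this).symm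
  simp only [Subgroup.coe_one, Units.val_one]
  apply Matrix.ext_of_mulVec_single
  intro i
  rw [h3, Matrix.one_mulVec]

theorem card_L : Nat.card L = 2 ^ 12 * 3 ^ 3 * 5 ^ 2 * 7 * 13 := by
  have h := Cfsg.Agent.S1059.result (F := K4) (q := 4) K4.card_eq
  rw [h]
  norm_num

theorem xK_mem (r : ℕ) (hr : r = 7 ∨ r = 6 ∨ r = 4 ∨ r = 5) (t : K4) : xK r t ∈ chevG2.group K4 := by
  apply Cfsg.Agent.Lib.ChevX.Reach.xG_mem_group
  rcases hr with rfl | rfl | rfl | rfl <;> decide

/-- The action of the group on the natural module. -/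
noncomputable def act (s : L) (w : Fin 6 → K4) : Fin 6 → K4 :=
  ((rho s : GL (Fin 6) K4) : Matrix (Fin 6) (Fin 6) K4) *ᵥ w

theorem act_one (w : Fin 6 → K4) : act 1 w = w := by
  simp [act]

theorem act_mul (a b : L) (w : Fin 6 → K4) : act (a * b) w = act a (act b w) := by
  simp [act, Matrix.mulVec_mulVec]

theorem act_add (s : L) (x y : Fin 6 → K4) : act s (x + y) = act s x + act s y := by
  simp [act, Matrix.mulVec_add]

theorem act_zero (s : L) : act s 0 = 0 := by
  simp [act]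

theorem act_pow (y : L) (w : Fin 6 → K4) (h : act y w = w) (k : ℕ) : act (y ^ k) w = w := by
  induction k with
  | zero => simpa using act_one w
  | succ k ih => rw [pow_succ, act_mul, h, ih]

/-- No fixed vectors for elements whose order is a prime dividing `|L|` exactly once, provided a
single element of that order has none. -/
theorem nofix (q : ℕ) (hq : q.Prime) (hq2 : ¬ q ^ 2 ∣ Nat.card L) (z : L) (hz : orderOf z = q)
    (hf : ∀ w, act z w = w → w = 0) (y : L) (hy : orderOf y = q) (w : Fin 6 → K4)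
    (hw : act y w = w) : w = 0 := by
  obtain ⟨g, k, hgk⟩ := Cfsg.Agent.Lib.PrimeGraph.Lift2.exists_conj_pow q hq hq2 z y hz hy
  have h1 : act z (act g w) = act g w := by
    rw [← hgk, ← act_mul]
    have : g * y ^ k * g⁻¹ * g = g * y ^ k := by group
    rw [this, act_mul, act_pow y w hw]
  have h2 := hf _ h1
  have h3 : w = act g⁻¹ (act g w) := by
    rw [← act_mul, inv_mul_cancel, act_one]
  rw [h3, h2, act_zero]

theorem sum_range_mulVec (M : Matrix (Fin 6) (Fin 6) K4) (w : Fin 6 → K4) (n : ℕ) :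
    (∑ k ∈ Finset.range n, M ^ k) *ᵥ w = ∑ k ∈ Finset.range n, (M ^ k) *ᵥ w := by
  induction n with
  | zero => simp
  | succ n ih => rw [Finset.sum_range_succ, Finset.sum_range_succ, Matrix.add_mulVec, ih]

theorem fix_of_norm (M : Matrix (Fin 6) (Fin 6) K4) (n : ℕ) (hn : n % 2 = 1)
    (hN : ∑ k ∈ Finset.range n, M ^ k = 0) (w : Fin 6 → K4) (hw : M *ᵥ w = w) : w = 0 := by
  have h1 : ∀ k : ℕ, (M ^ k) *ᵥ w = w := by
    intro k
    induction k with
    | zero => simp
    | succ k ih => rw [pow_succ, ← Matrix.mulVec_mulVec, hw, ih]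
  have h2 := sum_range_mulVec M w n
  rw [hN, Matrix.zero_mulVec] at h2
  simp only [h1, Finset.sum_const, Finset.card_range] at h2
  have h3 : n • w = w := by
    obtain ⟨m, rfl⟩ : ∃ m, n = 2 * m + 1 := ⟨n / 2, by omega⟩
    have : w + w = 0 := by
      funext i
      exact K4.add_self _
    rw [add_smul, mul_comm, mul_smul, two_smul, one_smul, this, smul_zero, zero_add]
  rw [h3] at h2
  exact h2.symm

/-- The matrices of the words. -/
def w6 : Matrix (Fin 6) (Fin 6) K4 := yMat 7 1 * yMat 6 1 * yMat 5 1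
/-- The matrices of the words. -/
def w10 : Matrix (Fin 6) (Fin 6) K4 := yMat 7 1 * yMat 6 1 * yMat 4 K4.w
/-- The matrices of the words. -/
def w7 : Matrix (Fin 6) (Fin 6) K4 := yMat 7 1 * yMat 6 1 * yMat 4 1 * yMat 5 1
/-- The matrices of the words. -/
def w13 : Matrix (Fin 6) (Fin 6) K4 := yMat 7 1 * yMat 6 1 * yMat 4 K4.w * yMat 5 K4.v

theorem w6_pow : w6 ^ 6 = 1 := by decide +kernel
theorem w6_pow2 : w6 ^ 2 ≠ 1 := by decide +kernel
theorem w6_pow3 : w6 ^ 3 ≠ 1 := by decide +kernel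
theorem w10_pow : w10 ^ 10 = 1 := by decide +kernel
theorem w10_pow2 : w10 ^ 2 ≠ 1 := by decide +kernel
theorem w10_pow5 : w10 ^ 5 ≠ 1 := by decide +kernel
theorem w7_pow : w7 ^ 7 = 1 := by decide +kernel
theorem w7_ne : w7 ≠ 1 := by decide +kernel
theorem w13_pow : w13 ^ 13 = 1 := by decide +kernel
theorem w13_ne : w13 ≠ 1 := by decide +kernel
set_option maxRecDepth 100000 in
theorem w7_norm : ∑ k ∈ Finset.range 7, w7 ^ k = 0 := by decide +kernel
set_option maxRecDepth 100000 in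
theorem w13_norm : ∑ k ∈ Finset.range 13, w13 ^ k = 0 := by decide +kernel

theorem orderOf_w6 : orderOf w6 = 6 := by
  apply orderOf_eq_of_pow_and_pow_div_prime (by norm_num) w6_pow
  intro p hp hd
  have h : p = 2 ∨ p = 3 := by
    have : p ∣ 2 * 3 := hd
    rcases (Nat.Prime.dvd_mul hp).1 this with h | h
    · exact Or.inl ((Nat.prime_dvd_prime_iff_eq hp Nat.prime_two).1 h)
    · exact Or.inr ((Nat.prime_dvd_prime_iff_eq hp Nat.prime_three).1 h)
  rcases h with rfl | rfl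
  · exact w6_pow3
  · exact w6_pow2

theorem orderOf_w10 : orderOf w10 = 10 := by
  apply orderOf_eq_of_pow_and_pow_div_prime (by norm_num) w10_pow
  intro p hp hd
  have h : p = 2 ∨ p = 5 := by
    have : p ∣ 2 * 5 := hd
    rcases (Nat.Prime.dvd_mul hp).1 this with h | h
    · exact Or.inl ((Nat.prime_dvd_prime_iff_eq hp Nat.prime_two).1 h)
    · exact Or.inr ((Nat.prime_dvd_prime_iff_eq hp Nat.prime_five).1 h)
  rcases h with rfl | rfl
  · exact w10_pow5
  · exact w10_pow2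

theorem orderOf_w7 : orderOf w7 = 7 := by
  haveI : Fact (Nat.Prime 7) := ⟨by norm_num⟩
  exact orderOf_eq_prime w7_pow w7_ne

theorem orderOf_w13 : orderOf w13 = 13 := by
  haveI : Fact (Nat.Prime 13) := ⟨by norm_num⟩
  exact orderOf_eq_prime w13_pow w13_ne

theorem order_word {g : L} {Y : GL (Fin 6) K4} (h : rho g = Y) :
    orderOf g = orderOf (Y : Matrix (Fin 6) (Fin 6) K4) := by
  rw [orderOf_units, ← h]
  exact (orderOf_injective rho rho_injective g).symm

/-- The matrix of a word. -/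
def wordM (W : List (ℕ × K4)) : Matrix (Fin 6) (Fin 6) K4 := (W.map fun e => yMat e.1 e.2).prod

/-- An element of the group with the matrix given by a word. -/
theorem exists_word (W : List (ℕ × K4)) (hW : ∀ e ∈ W, e.1 = 7 ∨ e.1 = 6 ∨ e.1 = 4 ∨ e.1 = 5) :
    ∃ g : L, ((rho g : GL (Fin 6) K4) : Matrix (Fin 6) (Fin 6) K4) = wordM W := by
  have key : ∀ W : List (ℕ × K4), (∀ e ∈ W, e.1 = 7 ∨ e.1 = 6 ∨ e.1 = 4 ∨ e.1 = 5) →
      ∃ (x : GL chevG2.Idx K4) (y : GL (Fin 6) K4), x ∈ chevG2.group K4 ∧ (x, y) ∈ A ∧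
        (y : Matrix (Fin 6) (Fin 6) K4) = (W.map fun e => yMat e.1 e.2).prod := by
    intro W
    induction W with
    | nil =>
      intro _
      exact ⟨1, 1, one_mem _, one_mem _, by simp⟩
    | cons e W ih =>
      intro hW
      obtain ⟨x, y, h1, h2, h3⟩ := ih fun e' he' => hW e' (List.mem_cons_of_mem _ he')
      have he := hW e List.mem_cons_self
      refine ⟨xK e.1 e.2 * x, yG e.1 e.2 * y, mul_mem (xK_mem _ he _) h1, ?_, ?_⟩
      · have := A.mul_mem (gen_mem e.1 he e.2) h2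
        rwa [Prod.mk_mul_mk] at this
      · rw [Units.val_mul, h3, List.map_cons, List.prod_cons]
        rfl
  obtain ⟨x, y, h1, h2, h3⟩ := key W hW
  refine ⟨⟨x, h1⟩, ?_⟩
  rw [rho_eq (x := ⟨x, h1⟩) h2, h3]
  rfl

theorem w6_eq : w6 = wordM [(7, 1), (6, 1), (5, 1)] := by
  simp [w6, wordM, Matrix.mul_assoc]

theorem w10_eq : w10 = wordM [(7, 1), (6, 1), (4, K4.w)] := by
  simp [w10, wordM, Matrix.mul_assoc]

theorem w7_eq : w7 = wordM [(7, 1), (6, 1), (4, 1), (5, 1)] := by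
  simp [w7, wordM, Matrix.mul_assoc]

theorem w13_eq : w13 = wordM [(7, 1), (6, 1), (4, K4.w), (5, K4.v)] := by
  simp [w13, wordM, Matrix.mul_assoc]

theorem exists_w6 : ∃ g : L, ((rho g : GL (Fin 6) K4) : Matrix (Fin 6) (Fin 6) K4) = w6 := by
  rw [w6_eq]
  exact exists_word _ (by simp)

theorem exists_w10 : ∃ g : L, ((rho g : GL (Fin 6) K4) : Matrix (Fin 6) (Fin 6) K4) = w10 := by
  rw [w10_eq]
  exact exists_word _ (by simp)

theorem exists_w7 : ∃ g : L, ((rho g : GL (Fin 6) K4) : Matrix (Fin 6) (Fin 6) K4) = w7 := by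
  rw [w7_eq]
  exact exists_word _ (by simp)

theorem exists_w13 : ∃ g : L, ((rho g : GL (Fin 6) K4) : Matrix (Fin 6) (Fin 6) K4) = w13 := by
  rw [w13_eq]
  exact exists_word _ (by simp)

theorem order_of_mat {g : L} {M : Matrix (Fin 6) (Fin 6) K4}
    (h : ((rho g : GL (Fin 6) K4) : Matrix (Fin 6) (Fin 6) K4) = M) : orderOf g = orderOf M := by
  rw [order_word (Y := rho g) rfl, h]

theorem hfix (y : L) (q : ℕ) (hq : q.Prime) (hq2 : q ≠ 2) (hy : orderOf y = q)
    (hw : ∃ w : Fin 6 → K4, w ≠ 0 ∧ act y w = w) : ∃ x : L, orderOf x = 2 * q := by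
  obtain ⟨w, hw0, hw⟩ := hw
  have hd : q ∣ 2 ^ 12 * 3 ^ 3 * 5 ^ 2 * 7 * 13 := by
    rw [← card_L, ← hy]
    exact orderOf_dvd_natCard y
  have hcases : q = 3 ∨ q = 5 ∨ q = 7 ∨ q = 13 := by
    rcases (Nat.Prime.dvd_mul hq).1 hd with h | h
    · rcases (Nat.Prime.dvd_mul hq).1 h with h | h
      · rcases (Nat.Prime.dvd_mul hq).1 h with h | h
        · rcases (Nat.Prime.dvd_mul hq).1 h with h | h
          · exact absurd ((Nat.prime_dvd_prime_iff_eq hq Nat.prime_two).1 (hq.dvd_of_dvd_pow h)) hq2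
          · exact Or.inl ((Nat.prime_dvd_prime_iff_eq hq Nat.prime_three).1 (hq.dvd_of_dvd_pow h))
        · exact Or.inr (Or.inl ((Nat.prime_dvd_prime_iff_eq hq Nat.prime_five).1 (hq.dvd_of_dvd_pow h)))
      · exact Or.inr (Or.inr (Or.inl ((Nat.prime_dvd_prime_iff_eq hq (by norm_num)).1 h)))
    · exact Or.inr (Or.inr (Or.inr ((Nat.prime_dvd_prime_iff_eq hq (by norm_num)).1 h)))
  rcases hcases with rfl | rfl | rfl | rfl
  · obtain ⟨g, hg⟩ := exists_w6
    exact ⟨g, by rw [order_of_mat hg, orderOf_w6]⟩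
  · obtain ⟨g, hg⟩ := exists_w10
    exact ⟨g, by rw [order_of_mat hg, orderOf_w10]⟩
  · exfalso
    obtain ⟨g, hg⟩ := exists_w7
    refine hw0 (nofix 7 hq (by rw [card_L]; norm_num) g (by rw [order_of_mat hg, orderOf_w7]) ?_ y hy w hw)
    intro v hv
    unfold act at hv
    rw [hg] at hv
    exact fix_of_norm w7 7 (by norm_num) w7_norm v hv
  · exfalso
    obtain ⟨g, hg⟩ := exists_w13
    refine hw0 (nofix 13 hq (by rw [card_L]; norm_num) g (by rw [order_of_mat hg, orderOf_w13]) ?_ y hy w hw)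
    intro v hv
    unfold act at hv
    rw [hg] at hv
    exact fix_of_norm w13 13 (by norm_num) w13_norm v hv

instance : Finite L := by
  have : Finite (GL chevG2.Idx K4) := inferInstance
  exact inferInstance

/-- The prime graph of `G₂(4)` over the concrete field. -/
theorem main_K (N : ℕ) :
    ∃ (H : Type) (_ : Group H) (_ : Fintype H), N < Fintype.card H ∧
      (∀ p : ℕ, p.Prime → (p ∣ Nat.card L ↔ p ∣ Nat.card H)) ∧
      (∀ r q : ℕ, r.Prime → q.Prime → r ≠ q →
        ((∃ x : L, orderOf x = r * q) ↔ (∃ y : H, orderOf y = r * q))) := by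
  refine Cfsg.Agent.Lib.PrimeGraph.Lift2.exists_lift' act act_one act_mul act_add ?_ ?_ ?_ hfix N
  · intro w
    funext i
    exact K4.add_self _
  · refine ⟨fun _ => 1, ?_⟩
    intro h
    have := congrFun h 0
    exact absurd this (by decide)
  · rw [card_L]
    norm_num

end Cfsg.Agent.Lib.PrimeGraph.G24
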