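import Cfsg.Agent.Lib.PrimeGraph.Lift2

/-!
# Semidirect products with elementary abelian `p`-groups and the prime graph

If `S` acts on an elementary abelian `p`-group `V` so that whenever an element of prime order `q ≠ p`
fixes a non-zero vector, `S` has an element of order `p q`, and `p ∣ |S|`, then the semidirect
products `V^k ⋊ S` have the same prime graph as `S`.
-/

set_option autoImplicit false

namespace Cfsg.Agent.Lib.PrimeGraph.Lift3

open Cfsg.Agent.Lib.PrimeGraph.Lift

variable {S W : Type*} [Group S] [AddCommGroup W]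

section
variable (act : S → W → W) (h1 : ∀ w, act 1 w = w)
    (hm : ∀ a b w, act (a * b) w = act a (act b w))
    (ha : ∀ s x y, act s (x + y) = act s x + act s y)

theorem pow_right_one (x : SD act h1 hm ha) (hr : x.right = 1) (n : ℕ) :
    Multiplicative.toAdd (x ^ n).left = n • Multiplicative.toAdd x.left := by
  induction n with
  | zero => simp
  | succ n ih =>
    rw [pow_succ, left_mul, right_pow, hr, one_pow, h1, ih, succ_nsmul]

/-- `(h ^ o) ^ p = 1`. -/
theorem p_pow_orderOf (p : ℕ) (hp : ∀ w : W, p • w = 0) (h : SD act h1 hm ha) :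
    (h ^ orderOf h.right) ^ p = 1 := by
  set x := h ^ orderOf h.right with hx
  have hr : x.right = 1 := by
    rw [hx, right_pow, pow_orderOf_eq_one]
  apply SemidirectProduct.ext
  · apply Multiplicative.toAdd.injective
    rw [pow_right_one act h1 hm ha x hr, hp]
    rfl
  · rw [right_pow, hr, one_pow]
    rfl

/-- An element of order `r * q` in the semidirect product projects to one in `S`. -/
theorem exists_orderOf_of_lift (p : ℕ) (hpp : p.Prime) (hp : ∀ w : W, p • w = 0)
    (hfix : ∀ (y : S) (q : ℕ), q.Prime → q ≠ p → orderOf y = q → (∃ w : W, w ≠ 0 ∧ act y w = w) →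
      ∃ x : S, orderOf x = p * q)
    [Finite S] (r q : ℕ) (hr : r.Prime) (hq : q.Prime) (hrq : r ≠ q) (h : SD act h1 hm ha)
    (hord : orderOf h = r * q) : ∃ y : S, orderOf y = r * q := by
  classical
  set s := h.right with hs
  set o := orderOf s with ho
  have ho0 : 0 < o := orderOf_pos s
  have h3 : orderOf h ∣ p * o := by
    apply orderOf_dvd_of_pow_eq_one
    rw [mul_comm, pow_mul]
    exact p_pow_orderOf act h1 hm ha p hp h
  have h4 : o ∣ orderOf h := by
    have := orderOf_map_dvd (SemidirectProduct.rightHom (φ := actHom act h1 hm ha)) h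
    exact this
  rw [hord] at h3 h4
  by_cases hx : h ^ o = 1
  · have h5 : orderOf h ∣ o := orderOf_dvd_of_pow_eq_one hx
    rw [hord] at h5
    exact ⟨s, Nat.dvd_antisymm h5 h4 |>.symm⟩
  · obtain ⟨c, hc⟩ := h4
    have hc2 : c ∣ p := by
      have h6 : o * c ∣ o * p := by
        rw [← hc, mul_comm o p]
        exact h3
      exact Nat.dvd_of_mul_dvd_mul_left ho0 h6
    have hc' : c = 1 ∨ c = p := (Nat.dvd_prime hpp).mp hc2
    rcases hc' with rfl | rfl
    · exfalso
      apply hx
      rw [mul_one] at hc
      rw [← hc, ← hord]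
      exact pow_orderOf_eq_one h
    · -- `r * q = p * o`
      by_cases hN : Multiplicative.toAdd (h ^ o).left = 0
      · exfalso
        apply hx
        apply SemidirectProduct.ext
        · apply Multiplicative.toAdd.injective
          rw [hN]
          rfl
        · rw [right_pow, pow_orderOf_eq_one]
          rfl
      · have hfixs := act_left_pow act h1 hm ha h
        have h2d : c ∣ r * q := ⟨o, by rw [hc, mul_comm]⟩
        have hcprime : c.Prime := hpp
        rcases (Nat.Prime.dvd_mul hpp).mp h2d with h7 | h7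
        · have hr2 : r = c := ((Nat.prime_dvd_prime_iff_eq hpp hr).mp h7).symm
          subst hr2
          have hoq : o = q := by
            have hc3 : r * q = r * o := by rw [hc, mul_comm]
            exact (Nat.eq_of_mul_eq_mul_left hr.pos hc3).symm
          obtain ⟨x, hx'⟩ := hfix s o (hoq ▸ hq) (hoq ▸ Ne.symm hrq) rfl ⟨_, hN, hfixs⟩
          exact ⟨x, by rw [hx', hoq]⟩
        · have hq2 : q = c := ((Nat.prime_dvd_prime_iff_eq hpp hq).mp h7).symm
          subst hq2
          have hor : o = r := by
            have hc3 : r * q = o * q := hc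
            exact (Nat.eq_of_mul_eq_mul_right hq.pos hc3).symm
          obtain ⟨x, hx'⟩ := hfix s o (hor ▸ hr) (hor ▸ hrq) rfl ⟨_, hN, hfixs⟩
          exact ⟨x, by rw [hx', hor, mul_comm]⟩

end

/-- The main theorem: same primes, same joined pairs, order at least `|W|`, as a group in `Type`. -/
theorem exists_lift {V : Type*} [AddCommGroup V] [Finite S] [Finite V]
    (act : S → V → V) (h1 : ∀ w, act 1 w = w)
    (hm : ∀ a b w, act (a * b) w = act a (act b w))
    (ha : ∀ s x y, act s (x + y) = act s x + act s y)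
    (p : ℕ) (hpp : p.Prime)
    (h2 : ∀ w : V, p • w = 0) (hne : ∃ v : V, v ≠ 0) (htwo : p ∣ Nat.card S)
    (hfix : ∀ (y : S) (q : ℕ), q.Prime → q ≠ p → orderOf y = q → (∃ w : V, w ≠ 0 ∧ act y w = w) →
      ∃ x : S, orderOf x = p * q)
    (N : ℕ) :
    ∃ (H : Type) (_ : Group H) (_ : Fintype H), N < Fintype.card H ∧
      (∀ l : ℕ, l.Prime → (l ∣ Nat.card S ↔ l ∣ Nat.card H)) ∧
      (∀ r q : ℕ, r.Prime → q.Prime → r ≠ q →
        ((∃ x : S, orderOf x = r * q) ↔ (∃ y : H, orderOf y = r * q))) := by
  classical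
  -- the power `V ^ N`
  let W := Fin (N + 1) → V
  let actW : S → W → W := fun s w i => act s (w i)
  have hW1 : ∀ w, actW 1 w = w := fun w => funext fun i => h1 _
  have hWm : ∀ a b w, actW (a * b) w = actW a (actW b w) := fun a b w => funext fun i => hm _ _ _
  have hWa : ∀ s x y, actW s (x + y) = actW s x + actW s y := fun s x y => funext fun i => ha _ _ _
  have hW2 : ∀ w : W, p • w = 0 := fun w => funext fun i => h2 _
  have hWfix : ∀ (y : S) (q : ℕ), q.Prime → q ≠ p → orderOf y = q →
      (∃ w : W, w ≠ 0 ∧ actW y w = w) → ∃ x : S, orderOf x = p * q := by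
    rintro y q hq hq2 hy ⟨w, hw0, hw⟩
    obtain ⟨i, hi⟩ := Function.ne_iff.mp hw0
    exact hfix y q hq hq2 hy ⟨w i, hi, congrFun hw i⟩
  let H0 := SD actW hW1 hWm hWa
  have hfinH0 : Finite H0 := by
    let e : H0 ≃ Multiplicative W × S := SemidirectProduct.equivProd
    exact Finite.of_equiv _ e.symm
  have hcardH0 : Nat.card H0 = Nat.card W * Nat.card S := by
    let e : H0 ≃ Multiplicative W × S := SemidirectProduct.equivProd
    rw [Nat.card_congr e, Nat.card_prod]
    rfl
  have hV2 : 2 ≤ Nat.card V := by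
    obtain ⟨v, hv⟩ := hne
    have : Nontrivial V := ⟨⟨v, 0, hv⟩⟩
    exact Finite.one_lt_card
  have hcardW : Nat.card W = Nat.card V ^ (N + 1) := by
    simp [W, Nat.card_pi]
  have hWlarge : N < Nat.card W := by
    rw [hcardW]
    calc N < 2 ^ (N + 1) := by
          have := Nat.lt_two_pow_self (n := N + 1)
          omega
      _ ≤ Nat.card V ^ (N + 1) := Nat.pow_le_pow_left hV2 _
  obtain ⟨n, gH, hnH, ⟨mulE⟩⟩ := exists_fin_model H0
  have hcardFin : Fintype.card (Fin n) = Nat.card H0 := by rw [Fintype.card_fin, hnH]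
  have hp1 : ∀ l : ℕ, l.Prime → (l ∣ Nat.card S ↔ l ∣ Nat.card H0) := by
    intro l hl
    rw [hcardH0]
    constructor
    · intro h
      exact Dvd.dvd.mul_left h _
    · intro h
      rcases (Nat.Prime.dvd_mul hl).mp h with h3 | h3
      · -- `l ∣ |W|`, so `l = p`
        have : Fact l.Prime := ⟨hl⟩
        obtain ⟨x, hx⟩ := exists_prime_addOrderOf_dvd_card' (G := W) l h3
        have h4 : addOrderOf x ∣ p := by
          apply addOrderOf_dvd_of_nsmul_eq_zero
          exact hW2 x
        rw [hx] at h4
        have := (Nat.prime_dvd_prime_iff_eq hl hpp).mp h4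
        rw [this]
        exact htwo
      · exact h3
  have hp2 : ∀ r q : ℕ, r.Prime → q.Prime → r ≠ q →
      ((∃ x : S, orderOf x = r * q) ↔ (∃ y : H0, orderOf y = r * q)) := by
    intro r q hr hq hrq
    constructor
    · rintro ⟨x, hx⟩
      refine ⟨SemidirectProduct.inr x, ?_⟩
      rw [orderOf_injective _ SemidirectProduct.inr_injective x]
      exact hx
    · rintro ⟨y, hy⟩
      exact exists_orderOf_of_lift actW hW1 hWm hWa p hpp hW2 hWfix r q hr hq hrq y hy
  refine ⟨Fin n, gH, inferInstance, ?_, @transfer _ _ _ _ gH _ mulE hp1 hp2⟩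
  rw [hcardFin, hcardH0]
  have : 0 < Nat.card S := Nat.card_pos
  nlinarith

end Cfsg.Agent.Lib.PrimeGraph.Lift3
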