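import Cfsg.Agent.Lib.PrimeGraph.Lift3

/-!
# The prime graph of a semidirect product with an elementary abelian `p`-group

For `V` elementary abelian `p` with an action of `S` the semidirect product `V^k ⋊ S` has an element of
order `r * q` if and only if `S` has one, or `r * q = p * o` for an element of `S` of prime order `o ≠ p`
fixing a non-zero vector.
-/

set_option autoImplicit false

namespace Cfsg.Agent.Lib.PrimeGraph.Lift4

open Cfsg.Agent.Lib.PrimeGraph.Lift Cfsg.Agent.Lib.PrimeGraph.Lift3

variable {S W : Type*} [Group S] [AddCommGroup W]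

section
variable (act : S → W → W) (h1 : ∀ w, act 1 w = w)
    (hm : ∀ a b w, act (a * b) w = act a (act b w))
    (ha : ∀ s x y, act s (x + y) = act s x + act s y)

/-- An element of order `r * q` in the semidirect product projects to one in `S`, or comes from a fixed
vector. -/
theorem orderOf_lift_cases (p : ℕ) (hpp : p.Prime) (hp : ∀ w : W, p • w = 0)
    [Finite S] (r q : ℕ) (hr : r.Prime) (hq : q.Prime) (hrq : r ≠ q) (h : SD act h1 hm ha)
    (hord : orderOf h = r * q) : (∃ y : S, orderOf y = r * q) ∨
      (∃ y : S, (orderOf y).Prime ∧ orderOf y ≠ p ∧ r * q = p * orderOf y ∧ ∃ w : W, w ≠ 0 ∧ act y w = w) := by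
  classical
  set s := h.right with hs
  set o := orderOf s with ho
  have ho0 : 0 < o := orderOf_pos s
  have h3 : orderOf h ∣ p * o := by
    apply orderOf_dvd_of_pow_eq_one
    rw [mul_comm, pow_mul]
    exact p_pow_orderOf act h1 hm ha p hp h
  have h4 : o ∣ orderOf h := by
    have := orderOf_map_dvd (SemidirectProduct.rightHom (φ := actHom act h1 hm ha)) h
    exact this
  rw [hord] at h3 h4
  by_cases hx : h ^ o = 1
  · have h5 : orderOf h ∣ o := orderOf_dvd_of_pow_eq_one hx
    rw [hord] at h5
    exact Or.inl ⟨s, Nat.dvd_antisymm h5 h4 |>.symm⟩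
  · obtain ⟨c, hc⟩ := h4
    have hc2 : c ∣ p := by
      have h6 : o * c ∣ o * p := by
        rw [← hc, mul_comm o p]
        exact h3
      exact Nat.dvd_of_mul_dvd_mul_left ho0 h6
    have hc' : c = 1 ∨ c = p := (Nat.dvd_prime hpp).mp hc2
    rcases hc' with rfl | rfl
    · exfalso
      apply hx
      rw [mul_one] at hc
      rw [← hc, ← hord]
      exact pow_orderOf_eq_one h
    · -- `r * q = p * o`
      by_cases hN : Multiplicative.toAdd (h ^ o).left = 0
      · exfalso
        apply hx
        apply SemidirectProduct.ext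
        · apply Multiplicative.toAdd.injective
          rw [hN]
          rfl
        · rw [right_pow, pow_orderOf_eq_one]
          rfl
      · have hfixs := act_left_pow act h1 hm ha h
        have h2d : c ∣ r * q := ⟨o, by rw [hc, mul_comm]⟩
        rcases (Nat.Prime.dvd_mul hpp).mp h2d with h7 | h7
        · have hr2 : r = c := ((Nat.prime_dvd_prime_iff_eq hpp hr).mp h7).symm
          subst hr2
          have hoq : o = q := by
            have hc3 : r * q = r * o := by rw [hc, mul_comm]
            exact (Nat.eq_of_mul_eq_mul_left hr.pos hc3).symm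
          exact Or.inr ⟨s, by rw [← ho, hoq]; exact hq, by rw [← ho, hoq]; exact Ne.symm hrq,
            by rw [← ho, hoq], _, hN, hfixs⟩
        · have hq2 : q = c := ((Nat.prime_dvd_prime_iff_eq hpp hq).mp h7).symm
          subst hq2
          have hor : o = r := by
            have hc3 : r * q = o * q := hc
            exact (Nat.eq_of_mul_eq_mul_right hq.pos hc3).symm
          exact Or.inr ⟨s, by rw [← ho, hor]; exact hr, by rw [← ho, hor]; exact hrq,
            by rw [← ho, hor, mul_comm], _, hN, hfixs⟩

/-- A fixed vector gives an element of order `p * o`. -/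
theorem exists_orderOf_of_fix (p : ℕ) (hpp : p.Prime) (hp : ∀ w : W, p • w = 0) (y : S)
    (ho : (orderOf y).Prime) (hop : orderOf y ≠ p) (w : W) (hw0 : w ≠ 0) (hw : act y w = w) :
    ∃ h : SD act h1 hm ha, orderOf h = p * orderOf y := by
  classical
  set o := orderOf y with hodef
  let h : SD act h1 hm ha := SemidirectProduct.inl (Multiplicative.ofAdd w) * SemidirectProduct.inr y
  have hl : Multiplicative.toAdd h.left = w := by
    simp [h]
  have hr : h.right = y := by
    simp [h]
  have hact : ∀ n : ℕ, act (y ^ n) w = w := by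
    intro n
    induction n with
    | zero => simpa using h1 w
    | succ n ih => rw [pow_succ, hm, hw, ih]
  have hpow : ∀ n : ℕ, Multiplicative.toAdd (h ^ n).left = n • w := by
    intro n
    induction n with
    | zero => simp
    | succ n ih =>
      rw [pow_succ, left_mul, ih, right_pow, hr, hl, hact, succ_nsmul]
  have hcop : Nat.Coprime o p := (Nat.coprime_primes ho hpp).2 hop
  have hne : o • w ≠ 0 := by
    intro h0
    apply hw0
    obtain ⟨a, b, hab⟩ : ∃ a b : ℤ, (o : ℤ) * a + (p : ℤ) * b = 1 := by
      refine ⟨Nat.gcdA o p, Nat.gcdB o p, ?_⟩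
      have := Nat.gcd_eq_gcd_ab o p
      rw [hcop] at this
      push_cast at this
      linarith
    have h5 : (o : ℤ) • w = 0 := by
      rw [natCast_zsmul]; exact h0
    have h6 : (p : ℤ) • w = 0 := by
      rw [natCast_zsmul]; exact hp w
    calc w = (1 : ℤ) • w := (one_zsmul w).symm
      _ = a • ((o : ℤ) • w) + b • ((p : ℤ) • w) := by
        rw [← hab, add_smul, mul_smul, mul_smul, ← smul_comm a (o : ℤ), ← smul_comm b (p : ℤ)]
      _ = 0 := by rw [h5, h6, smul_zero, smul_zero, add_zero]
  have h3 : orderOf h ∣ p * o := by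
    apply orderOf_dvd_of_pow_eq_one
    apply SemidirectProduct.ext
    · apply Multiplicative.toAdd.injective
      rw [hpow, mul_comm, mul_nsmul, hp]
      simp
    · rw [right_pow, hr, mul_comm, pow_mul, pow_orderOf_eq_one, one_pow]
      try rfl
  have h4 : o ∣ orderOf h := by
    have := orderOf_map_dvd (SemidirectProduct.rightHom (φ := actHom act h1 hm ha)) h
    rw [show (SemidirectProduct.rightHom (φ := actHom act h1 hm ha)) h = y from hr] at this
    exact this
  obtain ⟨c, hc⟩ := h4
  have hc2 : c ∣ p := by
    have h6 : o * c ∣ o * p := by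
      rw [← hc, mul_comm o p]
      exact h3
    exact Nat.dvd_of_mul_dvd_mul_left ho.pos h6
  refine ⟨h, ?_⟩
  rcases (Nat.dvd_prime hpp).mp hc2 with rfl | rfl
  · exfalso
    rw [mul_one] at hc
    have h7 : h ^ o = 1 := by
      rw [← hc]
      exact pow_orderOf_eq_one h
    apply hne
    rw [← hpow, h7]
    rfl
  · rw [hc, mul_comm]

end

/-- The family of semidirect products. -/
theorem exists_family {S V : Type} [Group S] [AddCommGroup V] [Finite S] [Finite V]
    (act : S → V → V) (h1 : ∀ w, act 1 w = w)
    (hm : ∀ a b w, act (a * b) w = act a (act b w))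
    (ha : ∀ s x y, act s (x + y) = act s x + act s y)
    (p : ℕ) (hpp : p.Prime)
    (h2 : ∀ w : V, p • w = 0) (hne : ∃ v : V, v ≠ 0)
    (N : ℕ) :
    ∃ (H : Type) (_ : Group H) (_ : Finite H), N < Nat.card H ∧
      (∀ l : ℕ, l.Prime → (l ∣ Nat.card H ↔ l = p ∨ l ∣ Nat.card S)) ∧
      (∀ r q : ℕ, r.Prime → q.Prime → r ≠ q →
        ((∃ y : H, orderOf y = r * q) ↔ ((∃ x : S, orderOf x = r * q) ∨
          (∃ y : S, (orderOf y).Prime ∧ orderOf y ≠ p ∧ r * q = p * orderOf y ∧ ∃ w : V, w ≠ 0 ∧ act y w = w)))) := by
  classical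
  let W := Fin (N + 1) → V
  let actW : S → W → W := fun s w i => act s (w i)
  have hW1 : ∀ w, actW 1 w = w := fun w => funext fun i => h1 _
  have hWm : ∀ a b w, actW (a * b) w = actW a (actW b w) := fun a b w => funext fun i => hm _ _ _
  have hWa : ∀ s x y, actW s (x + y) = actW s x + actW s y := fun s x y => funext fun i => ha _ _ _
  have hW2 : ∀ w : W, p • w = 0 := fun w => funext fun i => h2 _
  let H0 := SD actW hW1 hWm hWa
  have hfinH0 : Finite H0 := by
    let e : H0 ≃ Multiplicative W × S := SemidirectProduct.equivProd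
    exact Finite.of_equiv _ e.symm
  have hcardH0 : Nat.card H0 = Nat.card W * Nat.card S := by
    let e : H0 ≃ Multiplicative W × S := SemidirectProduct.equivProd
    rw [Nat.card_congr e, Nat.card_prod]
    rfl
  have hV2 : 2 ≤ Nat.card V := by
    obtain ⟨v, hv⟩ := hne
    have : Nontrivial V := ⟨⟨v, 0, hv⟩⟩
    exact Finite.one_lt_card
  have hcardW : Nat.card W = Nat.card V ^ (N + 1) := by
    simp [W, Nat.card_pi]
  have hWlarge : N < Nat.card W := by
    rw [hcardW]
    calc N < 2 ^ (N + 1) := by
          have := Nat.lt_two_pow_self (n := N + 1)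
          omega
      _ ≤ Nat.card V ^ (N + 1) := Nat.pow_le_pow_left hV2 _
  refine ⟨H0, inferInstance, hfinH0, ?_, ?_, ?_⟩
  · rw [hcardH0]
    have : 0 < Nat.card S := Nat.card_pos
    nlinarith
  · intro l hl
    rw [hcardH0]
    constructor
    · intro h
      rcases (Nat.Prime.dvd_mul hl).mp h with h3 | h3
      · left
        have : Fact l.Prime := ⟨hl⟩
        obtain ⟨x, hx⟩ := exists_prime_addOrderOf_dvd_card' (G := W) l h3
        have h4 : addOrderOf x ∣ p := by
          apply addOrderOf_dvd_of_nsmul_eq_zero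
          exact hW2 x
        rw [hx] at h4
        exact (Nat.prime_dvd_prime_iff_eq hl hpp).mp h4
      · exact Or.inr h3
    · rintro (rfl | h)
      · apply Dvd.dvd.mul_right
        obtain ⟨v, hv⟩ := hne
        have hvv : (fun _ => v : W) ≠ 0 := by
          intro h0
          exact hv (congrFun h0 0)
        have hord : addOrderOf (fun _ => v : W) = l := by
          haveI : Fact l.Prime := ⟨hl⟩
          exact addOrderOf_eq_prime (hW2 _) hvv
        rw [← hord]
        exact addOrderOf_dvd_natCard _
      · exact Dvd.dvd.mul_left h _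
  · intro r q hr hq hrq
    constructor
    · rintro ⟨y, hy⟩
      rcases orderOf_lift_cases actW hW1 hWm hWa p hpp hW2 r q hr hq hrq y hy with h | ⟨s, h3, h4, h5, w, hw0, hw⟩
      · exact Or.inl h
      · refine Or.inr ⟨s, h3, h4, h5, ?_⟩
        obtain ⟨i, hi⟩ := Function.ne_iff.mp hw0
        exact ⟨w i, hi, congrFun hw i⟩
    · rintro (⟨x, hx⟩ | ⟨s, h3, h4, h5, w, hw0, hw⟩)
      · refine ⟨SemidirectProduct.inr x, ?_⟩
        rw [orderOf_injective _ SemidirectProduct.inr_injective x]
        exact hx
      · have hvv : (fun _ => w : W) ≠ 0 := by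
          intro h0
          exact hw0 (congrFun h0 0)
        obtain ⟨h, hh⟩ := exists_orderOf_of_fix actW hW1 hWm hWa p hpp hW2 s h3 h4 (fun _ => w) hvv
          (funext fun _ => hw)
        exact ⟨h, by rw [hh, h5]⟩

end Cfsg.Agent.Lib.PrimeGraph.Lift4
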