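import Cfsg.Agent.Lib.PrimeGraph.K16Field
import Cfsg.Agent.Lib.PrimeGraph.Lift3
import Cfsg.Agent.Lib.Classical.HermOrders
import Cfsg.Agent.Lib.Classical.FieldTransfer

/-!
# A module in characteristic 5 for `PSU₃(4)` on which the elements of order 13 have no fixed vectors

The module consists of the functions on the 65 isotropic points with values in the field with five
elements which sum to zero along each of the 208 hyperbolic lines, modulo the constant functions. It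
has dimension 12.
-/

set_option autoImplicit false

namespace Cfsg.Agent.Lib.PrimeGraph.U34Mod

open Cfsg.Agent.Lib.PrimeGraph.K16Field K16
open scoped Matrix MatrixGroups

/-- Vectors. -/
abbrev U : Type := Fin 3 → K16

/-- The special unitary group. -/
abbrev SUK : Type := ↥(Cfsg.SU 3 K16 4)

/-- The Hermitian form. -/
def h (u v : U) : K16 := u 0 * fr (v 0) + u 1 * fr (v 1) + u 2 * fr (v 2)

theorem hermForm_eq (u v : U) : Cfsg.hermForm 3 K16 4 u v = h u v := by
  simp [Cfsg.hermForm, h, Fin.sum_univ_three, fr_eq]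

/-- The matrix of an element. -/
def mat (g : SUK) : Matrix (Fin 3) (Fin 3) K16 := g.1.1

theorem mat_mul (a b : SUK) : mat (a * b) = mat a * mat b := rfl

theorem mat_one : mat 1 = 1 := rfl

theorem mat_inj {a b : SUK} (h : mat a = mat b) : a = b :=
  Subtype.ext (Subtype.ext h)

/-- The matrix as a homomorphism. -/
def matHom : SUK →* Matrix (Fin 3) (Fin 3) K16 where
  toFun := mat
  map_one' := mat_one
  map_mul' := mat_mul

theorem matHom_inj : Function.Injective matHom := fun _ _ h => mat_inj h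

theorem h_mat (g : SUK) (u v : U) : h (mat g *ᵥ u) (mat g *ᵥ v) = h u v := by
  rw [← hermForm_eq, ← hermForm_eq]
  exact g.2 u v

theorem mat_inv_mulVec (g : SUK) (u : U) : mat g⁻¹ *ᵥ (mat g *ᵥ u) = u := by
  rw [Matrix.mulVec_mulVec, ← mat_mul, inv_mul_cancel, mat_one, Matrix.one_mulVec]

theorem mat_mulVec_inv (g : SUK) (u : U) : mat g *ᵥ (mat g⁻¹ *ᵥ u) = u := by
  rw [Matrix.mulVec_mulVec, ← mat_mul, mul_inv_cancel, mat_one, Matrix.one_mulVec]

/-- Isotropic non-zero vectors. -/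
def X (v : U) : Prop := h v v = 0 ∧ v ≠ 0

theorem X_mat (g : SUK) {v : U} (hv : X v) : X (mat g *ᵥ v) := by
  refine ⟨by rw [h_mat]; exact hv.1, fun h0 => hv.2 ?_⟩
  rw [← mat_inv_mulVec g v, h0, Matrix.mulVec_zero]

theorem X_mat_iff (g : SUK) (v : U) : X (mat g *ᵥ v) ↔ X v :=
  ⟨fun hv => by
    have := X_mat g⁻¹ hv
    rwa [mat_inv_mulVec] at this, X_mat g⟩

/-- The element `ω`. -/
def om : K16 := c6

/-- The element `ω²`. -/
def om2 : K16 := c7

/-- The functions of the module. -/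
structure IsS (f : U → ZMod 5) : Prop where
  supp : ∀ v, ¬ X v → f v = 0
  homog : ∀ (c : K16) (v : U), c ≠ 0 → f (c • v) = f v
  line : ∀ u v, X u → X v → h u v = 1 →
    f v + f u + f (u + v) + f (u + om • v) + f (u + om2 • v) = 0

theorem IsS.zero : IsS (0 : U → ZMod 5) :=
  ⟨fun _ _ => rfl, fun _ _ _ => rfl, fun _ _ _ _ _ => by simp⟩

theorem IsS.add {f g : U → ZMod 5} (hf : IsS f) (hg : IsS g) : IsS (f + g) := by
  refine ⟨fun v hv => ?_, fun c v hc => ?_, fun u v hu hv huv => ?_⟩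
  · simp [hf.supp v hv, hg.supp v hv]
  · simp [hf.homog c v hc, hg.homog c v hc]
  · have h1 := hf.line u v hu hv huv
    have h2 := hg.line u v hu hv huv
    simp only [Pi.add_apply]
    linear_combination h1 + h2

theorem IsS.neg {f : U → ZMod 5} (hf : IsS f) : IsS (-f) := by
  refine ⟨fun v hv => ?_, fun c v hc => ?_, fun u v hu hv huv => ?_⟩
  · simp [hf.supp v hv]
  · simp [hf.homog c v hc]
  · have h1 := hf.line u v hu hv huv
    simp only [Pi.neg_apply]
    linear_combination - h1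

/-- The action on functions. -/
def tw (g : SUK) (f : U → ZMod 5) : U → ZMod 5 := fun v => f (mat g⁻¹ *ᵥ v)

theorem IsS.tw (g : SUK) {f : U → ZMod 5} (hf : IsS f) : IsS (tw g f) := by
  refine ⟨fun v hv => ?_, fun c v hc => ?_, fun u v hu hv huv => ?_⟩
  · apply hf.supp
    rwa [X_mat_iff]
  · simp only [U34Mod.tw, Matrix.mulVec_smul]
    exact hf.homog c _ hc
  · simp only [U34Mod.tw, Matrix.mulVec_add, Matrix.mulVec_smul]
    exact hf.line _ _ (X_mat _ hu) (X_mat _ hv) (by rw [h_mat]; exact huv)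

open scoped _root_.Classical in
/-- The difference functions. -/
noncomputable def D (f : U → ZMod 5) : U × U → ZMod 5 :=
  fun p => if X p.1 ∧ X p.2 then f p.1 - f p.2 else 0

theorem D_apply {f : U → ZMod 5} {u v : U} (hu : X u) (hv : X v) : D f (u, v) = f u - f v := by
  simp [D, hu, hv]

/-- The module. -/
noncomputable def VV : AddSubgroup (U × U → ZMod 5) where
  carrier := {F | ∃ f, IsS f ∧ F = D f}
  zero_mem' := ⟨0, IsS.zero, by
    funext p
    simp [D]⟩
  add_mem' := by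
    rintro _ _ ⟨f, hf, rfl⟩ ⟨g, hg, rfl⟩
    refine ⟨f + g, hf.add hg, ?_⟩
    funext p
    by_cases hp : X p.1 ∧ X p.2
    · simp only [D, hp, and_self, if_true, Pi.add_apply]
      ring
    · simp [D, hp]
  neg_mem' := by
    rintro _ ⟨f, hf, rfl⟩
    refine ⟨-f, hf.neg, ?_⟩
    funext p
    by_cases hp : X p.1 ∧ X p.2
    · simp only [D, hp, and_self, if_true, Pi.neg_apply]
      ring
    · simp [D, hp]

/-- The action on the difference functions. -/
def twF (g : SUK) (F : U × U → ZMod 5) : U × U → ZMod 5 :=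
  fun p => F (mat g⁻¹ *ᵥ p.1, mat g⁻¹ *ᵥ p.2)

theorem D_tw (g : SUK) (f : U → ZMod 5) : twF g (D f) = D (tw g f) := by
  funext p
  have hc : (X (mat g⁻¹ *ᵥ p.1) ∧ X (mat g⁻¹ *ᵥ p.2)) ↔ (X p.1 ∧ X p.2) :=
    and_congr (X_mat_iff _ _) (X_mat_iff _ _)
  simp only [twF, D, U34Mod.tw]
  by_cases hp : X p.1 ∧ X p.2
  · rw [if_pos (hc.2 hp), if_pos hp]
  · rw [if_neg (mt hc.1 hp), if_neg hp]

theorem twF_mem (g : SUK) {F : U × U → ZMod 5} (hF : F ∈ VV) : twF g F ∈ VV := by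
  obtain ⟨f, hf, rfl⟩ := hF
  exact ⟨tw g f, hf.tw g, D_tw g f⟩

/-- The action on the module. -/
noncomputable def act (g : SUK) (w : VV) : VV := ⟨twF g w.1, twF_mem g w.2⟩

theorem act_one (w : VV) : act 1 w = w := by
  apply Subtype.ext
  funext p
  simp [act, twF, mat_one]

theorem act_mul (a b : SUK) (w : VV) : act (a * b) w = act a (act b w) := by
  apply Subtype.ext
  funext p
  simp [act, twF, mat_mul, Matrix.mulVec_mulVec, mul_inv_rev]

theorem act_add (s : SUK) (x y : VV) : act s (x + y) = act s x + act s y := by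
  apply Subtype.ext
  funext p
  rfl

theorem act_zero (s : SUK) : act s 0 = 0 := by
  apply Subtype.ext
  funext p
  rfl

theorem act_pow (y : SUK) (w : VV) (h : act y w = w) (k : ℕ) : act (y ^ k) w = w := by
  induction k with
  | zero => simpa using act_one w
  | succ k ih => rw [pow_succ, act_mul, h, ih]

theorem five_smul (w : VV) : (5 : ℕ) • w = 0 := by
  apply Subtype.ext
  funext p
  show (5 : ℕ) • (w.1 p) = 0
  have : ∀ x : ZMod 5, (5 : ℕ) • x = 0 := by decide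
  exact this _
/-- The isotropic points, in the order of the orbits of the element of order 13. -/
def Pts : List (K16 × K16 × K16) :=
  [(c0, c1, c1), (c1, c9, c3), (c1, c5, c2), (c1, c13, c9), (c1, c9, c7),
   (c1, c4, c7), (c1, c0, c12), (c1, c7, c6), (c1, c13, c6), (c1, c5, c3),
   (c1, c7, c14), (c1, c11, c9), (c1, c15, c0), (c0, c1, c8), (c1, c14, c2),
   (c1, c11, c14), (c1, c1, c0), (c0, c1, c12), (c1, c5, c13), (c1, c2, c4),
   (c1, c4, c2), (c1, c0, c1), (c1, c2, c14), (c1, c5, c11), (c1, c11, c5),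
   (c1, c8, c0), (c0, c1, c10), (c1, c6, c7), (c1, c6, c11), (c1, c5, c7),
   (c1, c3, c6), (c1, c3, c4), (c1, c11, c6), (c1, c12, c0), (c0, c1, c15),
   (c1, c4, c11), (c1, c0, c10), (c1, c11, c4), (c1, c10, c0), (c1, c0, c8),
   (c1, c13, c5), (c1, c6, c2), (c1, c9, c2), (c1, c14, c3), (c1, c3, c5),
   (c1, c2, c9), (c1, c6, c3), (c1, c14, c13), (c1, c7, c9), (c1, c3, c14),
   (c1, c13, c14), (c1, c4, c13), (c1, c0, c15), (c1, c3, c9), (c1, c7, c5),
   (c1, c7, c4), (c1, c2, c5), (c1, c14, c7), (c1, c13, c4), (c1, c14, c11),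
   (c1, c2, c6), (c1, c9, c13), (c1, c9, c11), (c1, c6, c13), (c1, c4, c3)]

/-- A point as a vector. -/
def toV (p : K16 × K16 × K16) : U := ![p.1, p.2.1, p.2.2]

/-- The normal form of a vector. -/
def nrm (a b c : K16) : K16 × K16 × K16 :=
  if a ≠ 0 then (1, b * a⁻¹, c * a⁻¹) else if b ≠ 0 then (0, 1, c * b⁻¹) else (0, 0, 1)

/-- Test for isotropy. -/
def isoT (a b c : K16) : Prop := a * fr a + b * fr b + c * fr c = 0 ∧ ¬ (a = 0 ∧ b = 0 ∧ c = 0)

instance (a b c : K16) : Decidable (isoT a b c) := by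
  unfold isoT
  infer_instance

theorem X_iff (v : U) : X v ↔ isoT (v 0) (v 1) (v 2) := by
  unfold X isoT h
  refine and_congr Iff.rfl (not_congr ?_)
  constructor
  · rintro rfl
    simp
  · rintro ⟨h0, h1, h2⟩
    funext i
    fin_cases i <;> assumption

theorem toV_eq (v : U) : toV (v 0, v 1, v 2) = v := by
  funext i
  fin_cases i <;> rfl

theorem nrm_mem_Pts : ∀ a b c : K16, isoT a b c → nrm a b c ∈ Pts := by
  decide +kernel

theorem exists_smul_nrm (v : U) (hv : X v) :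
    ∃ c : K16, c ≠ 0 ∧ v = c • toV (nrm (v 0) (v 1) (v 2)) := by
  have hv2 := hv.2
  by_cases h0 : v 0 = 0
  · by_cases h1 : v 1 = 0
    · exfalso
      have h3 := ((X_iff v).1 hv).1
      rw [h0, h1] at h3
      have h2 : v 2 ≠ 0 := by
        intro h2
        apply hv2
        funext i
        fin_cases i <;> assumption
      revert h3 h2
      generalize v 2 = t
      revert t
      decide +kernel
    · refine ⟨v 1, h1, ?_⟩
      funext i
      have e1 : ∀ t : K16, t ≠ 0 → t * 1 = t := fun t _ => mul_one t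
      fin_cases i
      · simp [toV, nrm, h0, h1]
      · simp [toV, nrm, h0, h1]
      · simp [toV, nrm, h0, h1]
        field_simp
  · refine ⟨v 0, h0, ?_⟩
    funext i
    fin_cases i
    · simp [toV, nrm, h0]
    · simp [toV, nrm, h0]
      field_simp
    · simp [toV, nrm, h0]
      field_simp

/-- The discrete logarithm modulo 5. -/
def lg : K16 → ZMod 5
  | c0 => 0
  | c1 => 0
  | c2 => 1
  | c3 => 4
  | c4 => 2
  | c5 => 3
  | c6 => 0
  | c7 => 0
  | c8 => 3
  | c9 => 4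
  | c10 => 4
  | c11 => 2
  | c12 => 1
  | c13 => 3
  | c14 => 1
  | c15 => 2

/-- The special function in coordinates. -/
def f3 (a b c : K16) : ZMod 5 :=
  if a * fr a + b * fr b + c * fr c = 0 ∧ ¬ (a = 0 ∧ b = 0 ∧ c = 0) ∧ b + c ≠ 0 ∧ a + c ≠ 0 then
    lg (b + c) - lg (a + c) else 0

/-- The special function. -/
def f0 (v : U) : ZMod 5 := f3 (v 0) (v 1) (v 2)

theorem f3_homog : ∀ (l a b c : K16), l ≠ 0 → f3 (l * a) (l * b) (l * c) = f3 a b c := by
  decide +kernel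

/-- The condition on a pair of normalized points. -/
def condP (p q : K16 × K16 × K16) : Prop :=
  let e := (p.1 * fr q.1 + p.2.1 * fr q.2.1 + p.2.2 * fr q.2.2)⁻¹
  let u0 := e * p.1
  let u1 := e * p.2.1
  let u2 := e * p.2.2
  f3 q.1 q.2.1 q.2.2 + f3 u0 u1 u2 + f3 (u0 + q.1) (u1 + q.2.1) (u2 + q.2.2) +
    f3 (u0 + c6 * q.1) (u1 + c6 * q.2.1) (u2 + c6 * q.2.2) +
    f3 (u0 + c7 * q.1) (u1 + c7 * q.2.1) (u2 + c7 * q.2.2) = 0

instance (p q : K16 × K16 × K16) : Decidable (condP p q) := by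
  unfold condP
  infer_instance

set_option maxRecDepth 100000 in
theorem condP_all : ∀ p ∈ Pts, ∀ q ∈ Pts, p ≠ q → condP p q := by
  decide +kernel


/-- The sum along a line. -/
def condV (f : U → ZMod 5) (u v : U) : ZMod 5 :=
  f v + f u + f (u + v) + f (u + om • v) + f (u + om2 • v)

theorem norm_cases : ∀ d : K16, d ≠ 0 → d * fr d = 1 ∨ d * fr d = om ∨ d * fr d = om2 := by
  decide +kernel

theorem om_mul : om * om = om2 ∧ om2 * om = 1 ∧ om * om2 = 1 ∧ om2 * om2 = om := by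
  decide +kernel

theorem condV_scale {f : U → ZMod 5} (hh : ∀ (c : K16) (v : U), c ≠ 0 → f (c • v) = f v) (c d : K16)
    (hcd : c * fr d = 1) (u v : U) : condV f (c • u) (d • v) = condV f u v := by
  have hc : c ≠ 0 := by
    rintro rfl
    rw [zero_mul] at hcd
    exact zero_ne_one hcd
  have hd : d ≠ 0 := by
    rintro rfl
    have : fr (0 : K16) = 0 := rfl
    rw [this, mul_zero] at hcd
    exact zero_ne_one hcd
  have key : ∀ l : K16, f (c • u + l • (d • v)) = f (u + (l * (d * fr d)) • v) := by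
    intro l
    have : c • u + l • (d • v) = c • (u + (l * (d * fr d)) • v) := by
      rw [smul_add, smul_smul, smul_smul]
      congr 2
      linear_combination - l * d * hcd
    rw [this, hh _ _ hc]
  have e1 : f (c • u + d • v) = f (u + (1 * (d * fr d)) • v) := by
    rw [← key, one_smul]
  unfold condV
  rw [e1, key, key, hh _ _ hc, hh _ _ hd]
  obtain ⟨h1, h2, h3, h4⟩ := om_mul
  rcases norm_cases d hd with h | h | h <;> rw [h]
  · simp only [one_mul, mul_one, one_smul]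
  · rw [h1, h2, one_mul]
    simp only [one_smul]
    ring
  · rw [h3, h4, one_mul]
    simp only [one_smul]
    ring

theorem h_smul (a b : K16) (x y : U) : h (a • x) (b • y) = a * fr b * h x y := by
  simp only [h, Pi.smul_apply, smul_eq_mul, fr_mul]
  ring

theorem fr_ne : ∀ a : K16, a ≠ 0 → fr a ≠ 0 := by
  decide +kernel

theorem f0_homog (c : K16) (v : U) (hc : c ≠ 0) : f0 (c • v) = f0 v :=
  f3_homog c _ _ _ hc

theorem condP_eq (p q : K16 × K16 × K16) (hpq : condP p q) :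
    condV f0 ((h (toV p) (toV q))⁻¹ • toV p) (toV q) = 0 := hpq

theorem line_f0 (u v : U) (hu : X u) (hv : X v) (huv : h u v = 1) : condV f0 u v = 0 := by
  obtain ⟨a, ha, hau⟩ := exists_smul_nrm u hu
  obtain ⟨b, hb, hbv⟩ := exists_smul_nrm v hv
  set p := nrm (u 0) (u 1) (u 2) with hp
  set q := nrm (v 0) (v 1) (v 2) with hq
  have hpm : p ∈ Pts := nrm_mem_Pts _ _ _ ((X_iff u).1 hu)
  have hqm : q ∈ Pts := nrm_mem_Pts _ _ _ ((X_iff v).1 hv)
  have h1 : a * fr b * h (toV p) (toV q) = 1 := by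
    rw [← h_smul, ← hau, ← hbv, huv]
  have hne : p ≠ q := by
    intro hpq
    have h2 : a * fr a * h (toV p) (toV p) = 0 := by
      rw [← h_smul, ← hau]
      exact hu.1
    have h3 : h (toV p) (toV p) = 0 := by
      rcases mul_eq_zero.1 h2 with h4 | h4
      · exact absurd h4 (mul_ne_zero ha (fr_ne a ha))
      · exact h4
    rw [← hpq, h3, mul_zero] at h1
    exact zero_ne_one h1
  have h2 := condP_eq p q (condP_all p hpm q hqm hne)
  set e := h (toV p) (toV q) with he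
  have he0 : e ≠ 0 := by
    intro h0
    rw [h0, mul_zero] at h1
    exact zero_ne_one h1
  have h3 : u = (a * e) • (e⁻¹ • toV p) := by
    rw [smul_smul, mul_assoc, mul_inv_cancel₀ he0, mul_one]
    exact hau
  rw [h3, hbv, condV_scale f0_homog _ _ (by linear_combination h1)]
  exact h2

theorem f0_isS : IsS f0 := by
  refine ⟨fun v hv => ?_, f0_homog, line_f0⟩
  unfold f0 f3
  rw [if_neg]
  rintro ⟨h1, h2, -, -⟩
  exact hv ((X_iff v).2 ⟨h1, h2⟩)

theorem mem_P (x : K16 × K16 × K16) (hx : x ∈ Pts) : ∃ n, n < 65 ∧ x = Pts.getD n (c0, c0, c0) := by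
  obtain ⟨i, hi, rfl⟩ := List.getElem_of_mem hx
  exact ⟨i, hi, by simp [List.getD_eq_getElem, hi]⟩

/-- The `n`-th point. -/
def P (n : ℕ) : U := toV (Pts.getD n (c0, c0, c0))

theorem P_iso : ∀ n : Fin 65, isoT (P n 0) (P n 1) (P n 2) := by
  decide +kernel

theorem P_X (n : ℕ) (hn : n < 65) : X (P n) := (X_iff _).2 (P_iso ⟨n, hn⟩)


theorem exists_ne : ∃ w : VV, w ≠ 0 := by
  refine ⟨⟨D f0, f0, f0_isS, rfl⟩, fun h0 => ?_⟩
  have h1 := congrArg (fun w : VV => w.1 (P 0, P 1)) h0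
  have h2 : D f0 (P 0, P 1) = f0 (P 0) - f0 (P 1) := D_apply (P_X 0 (by norm_num)) (P_X 1 (by norm_num))
  have h3 : f0 (P 0) - f0 (P 1) ≠ 0 := by decide +kernel
  exact h3 (h2 ▸ h1)

/-- Making an element. -/
theorem mkS_pres (M : Matrix (Fin 3) (Fin 3) K16)
    (hO : ∀ i j, M 0 i * fr (M 0 j) + M 1 i * fr (M 1 j) + M 2 i * fr (M 2 j) = if i = j then 1 else 0)
    (u v : U) : Cfsg.hermForm 3 K16 4 (M *ᵥ u) (M *ᵥ v) = Cfsg.hermForm 3 K16 4 u v := by
  rw [hermForm_eq, hermForm_eq]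
  have h00 := hO 0 0
  have h01 := hO 0 1
  have h02 := hO 0 2
  have h10 := hO 1 0
  have h11 := hO 1 1
  have h12 := hO 1 2
  have h20 := hO 2 0
  have h21 := hO 2 1
  have h22 := hO 2 2
  simp only [Fin.isValue, Fin.reduceEq, if_false, if_true] at h00 h01 h02 h10 h11 h12 h20 h21 h22
  simp only [h, Matrix.mulVec, dotProduct, Fin.sum_univ_three, fr_add, fr_mul]
  linear_combination u 0 * fr (v 0) * h00 + u 0 * fr (v 1) * h01 + u 0 * fr (v 2) * h02 +
    u 1 * fr (v 0) * h10 + u 1 * fr (v 1) * h11 + u 1 * fr (v 2) * h12 +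
    u 2 * fr (v 0) * h20 + u 2 * fr (v 1) * h21 + u 2 * fr (v 2) * h22

/-- Making an element. -/
def mkS (M : Matrix (Fin 3) (Fin 3) K16) (hd : M.det = 1)
    (hO : ∀ i j, M 0 i * fr (M 0 j) + M 1 i * fr (M 1 j) + M 2 i * fr (M 2 j) = if i = j then 1 else 0) : SUK :=
  ⟨⟨M, hd⟩, fun u v => mkS_pres M hO u v⟩

theorem mat_mkS (M : Matrix (Fin 3) (Fin 3) K16) (hd : M.det = 1) (hO) : mat (mkS M hd hO) = M := rfl

/-- The matrix of order 13. -/
def zM : Matrix (Fin 3) (Fin 3) K16 := !![c0, c0, c1; c2, c9, c0; c14, c3, c0]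
/-- The matrix of order 10. -/
def e10M : Matrix (Fin 3) (Fin 3) K16 := !![c0, c0, c1; c0, c8, c0; c15, c0, c0]
/-- The matrix of order 15. -/
def e15M : Matrix (Fin 3) (Fin 3) K16 := !![c0, c0, c1; c2, c4, c0; c5, c3, c0]

theorem zM_det : zM.det = 1 := by
  rw [Matrix.det_fin_three]; decide +kernel
theorem e10M_det : e10M.det = 1 := by
  rw [Matrix.det_fin_three]; decide +kernel
theorem e15M_det : e15M.det = 1 := by
  rw [Matrix.det_fin_three]; decide +kernel
theorem zM_O : ∀ i j, zM 0 i * fr (zM 0 j) + zM 1 i * fr (zM 1 j) + zM 2 i * fr (zM 2 j) = if i = j then 1 else 0 := by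
  decide +kernel
theorem e10M_O : ∀ i j, e10M 0 i * fr (e10M 0 j) + e10M 1 i * fr (e10M 1 j) + e10M 2 i * fr (e10M 2 j) = if i = j then 1 else 0 := by
  decide +kernel
theorem e15M_O : ∀ i j, e15M 0 i * fr (e15M 0 j) + e15M 1 i * fr (e15M 1 j) + e15M 2 i * fr (e15M 2 j) = if i = j then 1 else 0 := by
  decide +kernel

/-- The element of order 13. -/
def zS : SUK := mkS zM zM_det zM_O
/-- The element of order 10. -/
def e10S : SUK := mkS e10M e10M_det e10M_O
/-- The element of order 15. -/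
def e15S : SUK := mkS e15M e15M_det e15M_O

theorem orderOf_zS : orderOf zS = 13 := by
  rw [← orderOf_injective matHom matHom_inj zS]
  haveI : Fact (Nat.Prime 13) := ⟨by norm_num⟩
  apply orderOf_eq_prime
  · show zM ^ 13 = 1
    decide +kernel
  · show zM ≠ 1
    decide +kernel

theorem orderOf_e10S : orderOf e10S = 10 := by
  rw [← orderOf_injective matHom matHom_inj e10S]
  apply orderOf_eq_of_pow_and_pow_div_prime (by norm_num)
  · show e10M ^ 10 = 1
    decide +kernel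
  · intro p hp hd
    have h : p = 2 ∨ p = 5 := by
      have : p ∣ 2 * 5 := hd
      rcases (Nat.Prime.dvd_mul hp).1 this with h | h
      · exact Or.inl ((Nat.prime_dvd_prime_iff_eq hp Nat.prime_two).1 h)
      · exact Or.inr ((Nat.prime_dvd_prime_iff_eq hp Nat.prime_five).1 h)
    rcases h with rfl | rfl
    · show e10M ^ 5 ≠ 1
      decide +kernel
    · show e10M ^ 2 ≠ 1
      decide +kernel

theorem orderOf_e15S : orderOf e15S = 15 := by
  rw [← orderOf_injective matHom matHom_inj e15S]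
  apply orderOf_eq_of_pow_and_pow_div_prime (by norm_num)
  · show e15M ^ 15 = 1
    decide +kernel
  · intro p hp hd
    have h : p = 3 ∨ p = 5 := by
      have : p ∣ 3 * 5 := hd
      rcases (Nat.Prime.dvd_mul hp).1 this with h | h
      · exact Or.inl ((Nat.prime_dvd_prime_iff_eq hp Nat.prime_three).1 h)
      · exact Or.inr ((Nat.prime_dvd_prime_iff_eq hp Nat.prime_five).1 h)
    rcases h with rfl | rfl
    · show e15M ^ 5 ≠ 1
      decide +kernel
    · show e15M ^ 3 ≠ 1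
      decide +kernel

theorem card_SUK : Nat.card SUK = 2 ^ 6 * 3 * 5 ^ 2 * 13 := by
  have h := Cfsg.Agent.Lib.Classical.HermOrders.card_SU (F := K16) (q := 4) (by rw [card_eq]; norm_num) 3 (by norm_num)
  norm_num [Finset.prod_range_succ] at h
  show Nat.card ↥(Cfsg.SU 3 K16 4) = _
  omega

/-- One step along the orbits of the element of order 13. -/
theorem zstep : ∀ n : Fin 65, n.val % 13 ≠ 12 →
    nrm ((zM *ᵥ P n) 0) ((zM *ᵥ P n) 1) ((zM *ᵥ P n) 2) = Pts.getD (n.val + 1) (c0, c0, c0) := by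
  decide +kernel


/-- A line of the certificate. -/
def uL0 : U := ![c2, c3, c0]
/-- A line of the certificate. -/
def vL0 : U := ![c1, c1, c0]

theorem L0_data : isoT (uL0 0) (uL0 1) (uL0 2) ∧ isoT (vL0 0) (vL0 1) (vL0 2) ∧ h uL0 vL0 = 1 ∧
    isoT ((uL0 + vL0) 0) ((uL0 + vL0) 1) ((uL0 + vL0) 2) ∧
    isoT ((uL0 + om • vL0) 0) ((uL0 + om • vL0) 1) ((uL0 + om • vL0) 2) ∧
    isoT ((uL0 + om2 • vL0) 0) ((uL0 + om2 • vL0) 1) ((uL0 + om2 • vL0) 2) ∧
    nrm (vL0 0) (vL0 1) (vL0 2) = Pts.getD 16 (c0, c0, c0) ∧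
    nrm (uL0 0) (uL0 1) (uL0 2) = Pts.getD 25 (c0, c0, c0) ∧
    nrm ((uL0 + vL0) 0) ((uL0 + vL0) 1) ((uL0 + vL0) 2) = Pts.getD 12 (c0, c0, c0) ∧
    nrm ((uL0 + om • vL0) 0) ((uL0 + om • vL0) 1) ((uL0 + om • vL0) 2) = Pts.getD 33 (c0, c0, c0) ∧
    nrm ((uL0 + om2 • vL0) 0) ((uL0 + om2 • vL0) 1) ((uL0 + om2 • vL0) 2) = Pts.getD 38 (c0, c0, c0) := by
  decide +kernel

/-- A line of the certificate. -/
def uL1 : U := ![c2, c0, c3]
/-- A line of the certificate. -/
def vL1 : U := ![c1, c0, c1]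

theorem L1_data : isoT (uL1 0) (uL1 1) (uL1 2) ∧ isoT (vL1 0) (vL1 1) (vL1 2) ∧ h uL1 vL1 = 1 ∧
    isoT ((uL1 + vL1) 0) ((uL1 + vL1) 1) ((uL1 + vL1) 2) ∧
    isoT ((uL1 + om • vL1) 0) ((uL1 + om • vL1) 1) ((uL1 + om • vL1) 2) ∧
    isoT ((uL1 + om2 • vL1) 0) ((uL1 + om2 • vL1) 1) ((uL1 + om2 • vL1) 2) ∧
    nrm (vL1 0) (vL1 1) (vL1 2) = Pts.getD 21 (c0, c0, c0) ∧
    nrm (uL1 0) (uL1 1) (uL1 2) = Pts.getD 39 (c0, c0, c0) ∧
    nrm ((uL1 + vL1) 0) ((uL1 + vL1) 1) ((uL1 + vL1) 2) = Pts.getD 52 (c0, c0, c0) ∧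
    nrm ((uL1 + om • vL1) 0) ((uL1 + om • vL1) 1) ((uL1 + om • vL1) 2) = Pts.getD 6 (c0, c0, c0) ∧
    nrm ((uL1 + om2 • vL1) 0) ((uL1 + om2 • vL1) 1) ((uL1 + om2 • vL1) 2) = Pts.getD 36 (c0, c0, c0) := by
  decide +kernel

/-- A line of the certificate. -/
def uL2 : U := ![c4, c7, c12]
/-- A line of the certificate. -/
def vL2 : U := ![c1, c4, c13]

theorem L2_data : isoT (uL2 0) (uL2 1) (uL2 2) ∧ isoT (vL2 0) (vL2 1) (vL2 2) ∧ h uL2 vL2 = 1 ∧
    isoT ((uL2 + vL2) 0) ((uL2 + vL2) 1) ((uL2 + vL2) 2) ∧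
    isoT ((uL2 + om • vL2) 0) ((uL2 + om • vL2) 1) ((uL2 + om • vL2) 2) ∧
    isoT ((uL2 + om2 • vL2) 0) ((uL2 + om2 • vL2) 1) ((uL2 + om2 • vL2) 2) ∧
    nrm (vL2 0) (vL2 1) (vL2 2) = Pts.getD 51 (c0, c0, c0) ∧
    nrm (uL2 0) (uL2 1) (uL2 2) = Pts.getD 9 (c0, c0, c0) ∧
    nrm ((uL2 + vL2) 0) ((uL2 + vL2) 1) ((uL2 + vL2) 2) = Pts.getD 59 (c0, c0, c0) ∧
    nrm ((uL2 + om • vL2) 0) ((uL2 + om • vL2) 1) ((uL2 + om • vL2) 2) = Pts.getD 41 (c0, c0, c0) ∧
    nrm ((uL2 + om2 • vL2) 0) ((uL2 + om2 • vL2) 1) ((uL2 + om2 • vL2) 2) = Pts.getD 4 (c0, c0, c0) := by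
  decide +kernel

/-- A line of the certificate. -/
def uL3 : U := ![c4, c7, c10]
/-- A line of the certificate. -/
def vL3 : U := ![c1, c4, c2]

theorem L3_data : isoT (uL3 0) (uL3 1) (uL3 2) ∧ isoT (vL3 0) (vL3 1) (vL3 2) ∧ h uL3 vL3 = 1 ∧
    isoT ((uL3 + vL3) 0) ((uL3 + vL3) 1) ((uL3 + vL3) 2) ∧
    isoT ((uL3 + om • vL3) 0) ((uL3 + om • vL3) 1) ((uL3 + om • vL3) 2) ∧
    isoT ((uL3 + om2 • vL3) 0) ((uL3 + om2 • vL3) 1) ((uL3 + om2 • vL3) 2) ∧
    nrm (vL3 0) (vL3 1) (vL3 2) = Pts.getD 20 (c0, c0, c0) ∧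
    nrm (uL3 0) (uL3 1) (uL3 2) = Pts.getD 23 (c0, c0, c0) ∧
    nrm ((uL3 + vL3) 0) ((uL3 + vL3) 1) ((uL3 + vL3) 2) = Pts.getD 57 (c0, c0, c0) ∧
    nrm ((uL3 + om • vL3) 0) ((uL3 + om • vL3) 1) ((uL3 + om • vL3) 2) = Pts.getD 46 (c0, c0, c0) ∧
    nrm ((uL3 + om2 • vL3) 0) ((uL3 + om2 • vL3) 1) ((uL3 + om2 • vL3) 2) = Pts.getD 61 (c0, c0, c0) := by
  decide +kernel

section const

variable {f : U → ZMod 5} (hf : IsS f) (hz : ∀ x, X x → f (zM *ᵥ x) = f x)
include hf hz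

theorem f_nrm {x : U} (hx : X x) : f (toV (nrm (x 0) (x 1) (x 2))) = f x := by
  obtain ⟨c, hc, hcx⟩ := exists_smul_nrm x hx
  conv_rhs => rw [hcx]
  rw [hf.homog c _ hc]

theorem g_step (n : ℕ) (hn : n < 65) (h12 : n % 13 ≠ 12) : f (P (n + 1)) = f (P n) := by
  have h1 := P_X n hn
  have h2 : X (zM *ᵥ P n) := X_mat zS h1
  have h3 := f_nrm hf hz h2
  rw [zstep ⟨n, hn⟩ h12] at h3
  rw [← hz _ h1, ← h3]
  rfl

theorem g_chain (n : ℕ) (hn : n < 65) : f (P n) = f (P (n / 13 * 13)) := by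
  induction n with
  | zero => rfl
  | succ n ih =>
    by_cases h12 : n % 13 = 12
    · have : (n + 1) / 13 * 13 = n + 1 := by omega
      rw [this]
    · rw [g_step hf hz n (by omega) h12, ih (by omega)]
      have : (n + 1) / 13 = n / 13 := by omega
      rw [this]

theorem f_val {x : U} (hx : X x) {n : ℕ} (hn : n < 65)
    (hP : nrm (x 0) (x 1) (x 2) = Pts.getD n (c0, c0, c0)) : f x = f (P (n / 13 * 13)) := by
  rw [← f_nrm hf hz hx, hP]
  exact g_chain hf hz n hn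

theorem f_cover {x : U} (hx : X x) : ∃ i, i < 5 ∧ f x = f (P (i * 13)) := by
  obtain ⟨n, hn, hP⟩ := mem_P _ (nrm_mem_Pts _ _ _ ((X_iff x).1 hx))
  exact ⟨n / 13, by omega, f_val hf hz hx hn hP⟩



theorem L0_eq : f (P (16 / 13 * 13)) + f (P (25 / 13 * 13)) + f (P (12 / 13 * 13)) + f (P (33 / 13 * 13)) + f (P (38 / 13 * 13)) = 0 := by
  obtain ⟨h1, h2, h3, h4, h5, h6, h7, h8, h9, h10, h11⟩ := L0_data
  have hu := (X_iff uL0).2 h1
  have hv := (X_iff vL0).2 h2
  have := hf.line _ _ hu hv h3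
  rw [f_val hf hz hv (by norm_num) h7, f_val hf hz hu (by norm_num) h8,
    f_val hf hz ((X_iff _).2 h4) (by norm_num) h9, f_val hf hz ((X_iff _).2 h5) (by norm_num) h10,
    f_val hf hz ((X_iff _).2 h6) (by norm_num) h11] at this
  exact this



theorem L1_eq : f (P (21 / 13 * 13)) + f (P (39 / 13 * 13)) + f (P (52 / 13 * 13)) + f (P (6 / 13 * 13)) + f (P (36 / 13 * 13)) = 0 := by
  obtain ⟨h1, h2, h3, h4, h5, h6, h7, h8, h9, h10, h11⟩ := L1_data
  have hu := (X_iff uL1).2 h1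
  have hv := (X_iff vL1).2 h2
  have := hf.line _ _ hu hv h3
  rw [f_val hf hz hv (by norm_num) h7, f_val hf hz hu (by norm_num) h8,
    f_val hf hz ((X_iff _).2 h4) (by norm_num) h9, f_val hf hz ((X_iff _).2 h5) (by norm_num) h10,
    f_val hf hz ((X_iff _).2 h6) (by norm_num) h11] at this
  exact this



theorem L2_eq : f (P (51 / 13 * 13)) + f (P (9 / 13 * 13)) + f (P (59 / 13 * 13)) + f (P (41 / 13 * 13)) + f (P (4 / 13 * 13)) = 0 := by
  obtain ⟨h1, h2, h3, h4, h5, h6, h7, h8, h9, h10, h11⟩ := L2_data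
  have hu := (X_iff uL2).2 h1
  have hv := (X_iff vL2).2 h2
  have := hf.line _ _ hu hv h3
  rw [f_val hf hz hv (by norm_num) h7, f_val hf hz hu (by norm_num) h8,
    f_val hf hz ((X_iff _).2 h4) (by norm_num) h9, f_val hf hz ((X_iff _).2 h5) (by norm_num) h10,
    f_val hf hz ((X_iff _).2 h6) (by norm_num) h11] at this
  exact this



theorem L3_eq : f (P (20 / 13 * 13)) + f (P (23 / 13 * 13)) + f (P (57 / 13 * 13)) + f (P (46 / 13 * 13)) + f (P (61 / 13 * 13)) = 0 := by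
  obtain ⟨h1, h2, h3, h4, h5, h6, h7, h8, h9, h10, h11⟩ := L3_data
  have hu := (X_iff uL3).2 h1
  have hv := (X_iff vL3).2 h2
  have := hf.line _ _ hu hv h3
  rw [f_val hf hz hv (by norm_num) h7, f_val hf hz hu (by norm_num) h8,
    f_val hf hz ((X_iff _).2 h4) (by norm_num) h9, f_val hf hz ((X_iff _).2 h5) (by norm_num) h10,
    f_val hf hz ((X_iff _).2 h6) (by norm_num) h11] at this
  exact this

omit hf hz in
theorem solve_five : ∀ a0 a1 a2 a3 a4 : ZMod 5,
    (a1 + a1 + a0 + a2 + a2) = 0 → (a1 + a3 + a4 + a0 + a2) = 0 → (a3 + a0 + a4 + a3 + a0) = 0 → (a1 + a1 + a4 + a3 + a4) = 0 →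
    a0 = a4 ∧ a1 = a4 ∧ a2 = a4 ∧ a3 = a4 := by
  decide +kernel


/-- A function in the module which is fixed by the element of order 13 is constant. -/
theorem f_const {x y : U} (hx : X x) (hy : X y) : f x = f y := by
  have e0 := L0_eq hf hz
  have e1 := L1_eq hf hz
  have e2 := L2_eq hf hz
  have e3 := L3_eq hf hz
  simp only [Nat.reduceDiv, Nat.reduceMul] at e0 e1 e2 e3
  obtain ⟨h0, h1, h2, h3⟩ := solve_five (f (P 0)) (f (P 13)) (f (P 26)) (f (P 39)) (f (P 52)) e0 e1 e2 e3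
  have key : ∀ i, i < 5 → f (P (i * 13)) = f (P 52) := by
    intro i hi
    interval_cases i
    · exact h0
    · exact h1
    · exact h2
    · exact h3
    · rfl
  obtain ⟨i, hi, hix⟩ := f_cover hf hz hx
  obtain ⟨j, hj, hjy⟩ := f_cover hf hz hy
  rw [hix, hjy, key i hi, key j hj]

end const

theorem zS_pow : zS ^ 13 = 1 := by
  rw [← orderOf_zS]
  exact pow_orderOf_eq_one _

/-- The element of order 13 has no non-zero fixed vector in the module. -/
theorem fix_z (w : VV) (hw : act zS w = w) : w = 0 := by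
  obtain ⟨F, f, hf, rfl⟩ := w
  have hF : ∀ u v, X u → X v → f (mat zS⁻¹ *ᵥ u) - f (mat zS⁻¹ *ᵥ v) = f u - f v := by
    intro u v hu hv
    have h1 := congrArg (fun w : VV => w.1 (u, v)) hw
    simp only [act, twF] at h1
    rw [D_apply (X_mat _ hu) (X_mat _ hv), D_apply hu hv] at h1
    exact h1
  have hx0 : X (P 0) := P_X 0 (by norm_num)
  set c := f (mat zS⁻¹ *ᵥ P 0) - f (P 0) with hc
  have h1 : ∀ u, X u → f (mat zS⁻¹ *ᵥ u) = f u + c := by
    intro u hu
    have := hF u (P 0) hu hx0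
    rw [hc]
    linear_combination this
  have h2 : ∀ (k : ℕ) (u : U), X u → f (mat (zS⁻¹ ^ k) *ᵥ u) = f u + k * c := by
    intro k
    induction k with
    | zero =>
      intro u _
      simp [mat_one]
    | succ k ih =>
      intro u hu
      rw [pow_succ, mat_mul, ← Matrix.mulVec_mulVec, ih _ (X_mat _ hu), h1 u hu]
      push_cast
      ring
  have h3 : (13 : ZMod 5) * c = 0 := by
    have := h2 13 (P 0) hx0
    rw [inv_pow, zS_pow, inv_one, mat_one, Matrix.one_mulVec] at this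
    push_cast at this
    linear_combination - this
  have hc0 : c = 0 := by
    revert h3
    generalize c = t
    revert t
    decide +kernel
  have hz : ∀ x, X x → f (zM *ᵥ x) = f x := by
    intro x hx
    have hx' : X (zM *ᵥ x) := X_mat zS hx
    have := h1 _ hx'
    rw [hc0, add_zero] at this
    rw [← this]
    have h5 : mat zS⁻¹ *ᵥ (zM *ᵥ x) = x := mat_inv_mulVec zS x
    rw [h5]
  apply Subtype.ext
  funext p
  show D f p = 0
  by_cases hp : X p.1 ∧ X p.2
  · have : D f p = f p.1 - f p.2 := by simp [D, hp]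
    rw [this, f_const hf hz hp.1 hp.2, sub_self]
  · simp [D, hp]

theorem nofix (y : SUK) (hy : orderOf y = 13) (w : VV) (hw : act y w = w) : w = 0 := by
  obtain ⟨g, k, hgk⟩ := Cfsg.Agent.Lib.PrimeGraph.Lift2.exists_conj_pow 13 (by norm_num)
    (by rw [card_SUK]; norm_num) zS y orderOf_zS hy
  have h1 : act zS (act g w) = act g w := by
    rw [← hgk, ← act_mul]
    have : g * y ^ k * g⁻¹ * g = g * y ^ k := by group
    rw [this, act_mul, act_pow y w hw]
  have h2 := fix_z _ h1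
  have h3 : w = act g⁻¹ (act g w) := by
    rw [← act_mul, inv_mul_cancel, act_one]
  rw [h3, h2, act_zero]

theorem hfix (y : SUK) (q : ℕ) (hq : q.Prime) (hq5 : q ≠ 5) (hy : orderOf y = q)
    (hw : ∃ w : VV, w ≠ 0 ∧ act y w = w) : ∃ x : SUK, orderOf x = 5 * q := by
  obtain ⟨w, hw0, hw⟩ := hw
  have hd : q ∣ 2 ^ 6 * 3 * 5 ^ 2 * 13 := by
    rw [← card_SUK, ← hy]
    exact orderOf_dvd_natCard y
  have hcases : q = 2 ∨ q = 3 ∨ q = 13 := by
    rcases (Nat.Prime.dvd_mul hq).1 hd with h | h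
    · rcases (Nat.Prime.dvd_mul hq).1 h with h | h
      · rcases (Nat.Prime.dvd_mul hq).1 h with h | h
        · exact Or.inl ((Nat.prime_dvd_prime_iff_eq hq Nat.prime_two).1 (hq.dvd_of_dvd_pow h))
        · exact Or.inr (Or.inl ((Nat.prime_dvd_prime_iff_eq hq Nat.prime_three).1 h))
      · exact absurd ((Nat.prime_dvd_prime_iff_eq hq Nat.prime_five).1 (hq.dvd_of_dvd_pow h)) hq5
    · exact Or.inr (Or.inr ((Nat.prime_dvd_prime_iff_eq hq (by norm_num)).1 h))
  rcases hcases with rfl | rfl | rfl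
  · exact ⟨e10S, orderOf_e10S⟩
  · exact ⟨e15S, orderOf_e15S⟩
  · exact absurd (nofix y hy w hw) hw0

/-- The prime graph of the special unitary group `SU₃(4)` over the concrete field. -/
theorem main_K (N : ℕ) :
    ∃ (H : Type) (_ : Group H) (_ : Fintype H), N < Fintype.card H ∧
      (∀ p : ℕ, p.Prime → (p ∣ Nat.card SUK ↔ p ∣ Nat.card H)) ∧
      (∀ r q : ℕ, r.Prime → q.Prime → r ≠ q →
        ((∃ x : SUK, orderOf x = r * q) ↔ (∃ y : H, orderOf y = r * q))) := by
  refine Cfsg.Agent.Lib.PrimeGraph.Lift3.exists_lift act act_one act_mul act_add 5 (by norm_num)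
    five_smul exists_ne ?_ hfix N
  rw [card_SUK]
  norm_num

end Cfsg.Agent.Lib.PrimeGraph.U34Mod
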